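import Cfsg.Agent.R2.F4L.Act

/-!
# Lemma (B): the submodules `V_{2 p ^ j}` of the Albert algebra (helper2, S5931)

`three_MH` : for a tuple `x` of type `(2, j)` : the relations `MH` of `R2/F4L/M.lean` hold for the orthogonal basis
`x_0 + x_2`, `x_0 - x_2`, `x_1`.
-/

set_option autoImplicit false
set_option linter.unusedSectionVars false

namespace Cfsg.Agent.R2.F4L

open Cfsg.Lie
open Cfsg.Agent.ChevalleyStructure.E6Min.Tables Cfsg.Agent.ChevalleyStructure.E6Min.Basic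
open Cfsg.Agent.H952.F4 (sh cr tf tr1 u0)
open Cfsg.Agent.H952.F4.Jord
open Cfsg.Agent.H943.SL2Rel Cfsg.Agent.R2.H28.SL2

universe u v w

variable {k : Type u} [Field k] [DecidableEq k] {K : Type w} [Field K] [Fintype K] [DecidableEq K] {ι : K →+* k}
variable {p : ℕ} [Fact p.Prime] [CharP k p] [CharP K p]

section Two

variable {V : Type*} [AddCommGroup V] [Module k V] {ρ : Representation k (Matrix.SpecialLinearGroup (Fin 2) K) V}
variable {i : ℕ} {x : ℕ → V}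

theorem ts2_u0 (hx : TS ι p ρ 2 i x) (t : K) :
    ρ (u t) (x 0) = x 0 + (2 * (ι t ^ p ^ i)) • x 1 + ((ι t ^ p ^ i) ^ 2) • x 2 := by
  rw [hx.u 0 (by norm_num) t]
  simp only [Finset.sum_range_succ, Finset.sum_range_zero, Nat.choose]
  norm_num

theorem ts2_u1 (hx : TS ι p ρ 2 i x) (t : K) : ρ (u t) (x 1) = x 1 + (ι t ^ p ^ i) • x 2 := by
  rw [hx.u 1 (by norm_num) t]
  simp only [Finset.sum_range_succ, Finset.sum_range_zero, Nat.choose]
  norm_num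

theorem ts2_u2 (hx : TS ι p ρ 2 i x) (t : K) : ρ (u t) (x 2) = x 2 := hx.u_top t

theorem ts2_h0 (hx : TS ι p ρ 2 i x) (a : Kˣ) : ρ (h a) (x 0) = ((ι a ^ p ^ i)⁻¹ ^ 2) • x 0 := by
  rw [hx.h 0 (by norm_num)]
  norm_num

theorem ts2_h1 (hx : TS ι p ρ 2 i x) (a : Kˣ) : ρ (h a) (x 1) = x 1 := by
  rw [hx.h 1 (by norm_num)]
  have h0 : ι (a : K) ^ p ^ i ≠ 0 := pow_ne_zero _ ((map_ne_zero ι).2 a.ne_zero)
  rw [pow_one, show 2 - 1 = 1 from rfl, pow_one, mul_inv_cancel₀ h0, one_smul]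

theorem ts2_h2 (hx : TS ι p ρ 2 i x) (a : Kˣ) : ρ (h a) (x 2) = ((ι a ^ p ^ i) ^ 2) • x 2 := by
  rw [hx.h 2 (by norm_num)]
  norm_num

theorem ts2_w0 (hx : TS ι p ρ 2 i x) : ρ w (x 0) = x 2 := by
  rw [hx.w 0 (by norm_num)]
  norm_num

theorem ts2_w1 (hx : TS ι p ρ 2 i x) : ρ w (x 1) = -x 1 := by
  rw [hx.w 1 (by norm_num)]
  norm_num

theorem ts2_w2 (hx : TS ι p ρ 2 i x) : ρ w (x 2) = x 0 := by
  rw [hx.w 2 (by norm_num)]
  norm_num

end Two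

variable {ρ : Representation k (Matrix.SpecialLinearGroup (Fin 2) K) (I27 → k)} {i : ℕ} {x : ℕ → I27 → k}

/-- the norm vanishes -/
theorem three_N (H : Act ρ) (hp2 : p ≠ 2) (hQ : 7 ≤ Fintype.card K) (hx : TS ι p ρ 2 i x) (a b c : k) :
    cubicT (a • x 0 + b • x 1 + c • x 2) = 0 := by
  have h2 := two_ne (k := k) p hp2
  obtain ⟨lam, hl⟩ := exists_prim ι i p
  set α := ι (lam : K) ^ p ^ i with hα
  have hα0 : α ≠ 0 := pow_ne_zero _ ((map_ne_zero ι).2 lam.ne_zero)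
  have ne : ∀ m : ℕ, 0 < m → m < 6 → α ^ m ≠ 1 := fun m h0 h6 => hl.pow_ne_one_of_pos_of_lt (by omega) (by omega)
  have w0 := (ts2_h0 hx) lam
  have w1 : ρ (h lam) (x 1) = (1 : k) • x 1 := by rw [one_smul]; exact (ts2_h1 hx) lam
  have w2 := (ts2_h2 hx) lam
  rw [← hα] at w0 w2
  have inv_ne : ∀ m : ℕ, 0 < m → m < 6 → α⁻¹ ^ m ≠ 1 := fun m h0 h6 h => by
    rw [inv_pow] at h
    exact ne m h0 h6 (inv_injective (h.trans inv_one.symm))
  have e1 : tf (sh (x 0)) (x 1) = 0 := H.wts w0 w1 (by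
    rw [mul_one, ← pow_mul]
    exact inv_ne 4 (by norm_num) (by norm_num))
  have e2 : tf (sh (x 0)) (x 2) = 0 := H.wts w0 w2 (by
    rw [← pow_mul, inv_pow]
    have : (α ^ (2 * 2))⁻¹ * α ^ 2 = (α ^ 2)⁻¹ := by field_simp
    rw [this, ← inv_pow]
    exact inv_ne 2 (by norm_num) (by norm_num))
  have e3 : tf (sh (x 1)) (x 0) = 0 := H.wts w1 w0 (by
    rw [one_pow, one_mul]
    exact inv_ne 2 (by norm_num) (by norm_num))
  have e4 : tf (sh (x 1)) (x 2) = 0 := H.wts w1 w2 (by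
    rw [one_pow, one_mul]
    exact ne 2 (by norm_num) (by norm_num))
  have e5 : tf (sh (x 2)) (x 0) = 0 := H.wts w2 w0 (by
    rw [← pow_mul, inv_pow]
    have : α ^ (2 * 2) * (α ^ 2)⁻¹ = α ^ 2 := by field_simp
    rw [this]
    exact ne 2 (by norm_num) (by norm_num))
  have e6 : tf (sh (x 2)) (x 1) = 0 := H.wts w2 w1 (by
    rw [mul_one, ← pow_mul]
    exact ne 4 (by norm_num) (by norm_num))
  have hw : ∀ y : I27 → k, cubicT (ρ w y) = cubicT y := fun y => H.N w y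
  have e7 : cubicT (x 1) = 0 := by
    have h3 := hw (x 1)
    rw [(ts2_w1 hx), show -x 1 = (-1 : k) • x 1 by rw [neg_one_smul], N_smul] at h3
    have h4 : (2 : k) * cubicT (x 1) = 0 := by linear_combination -h3
    exact (mul_eq_zero.1 h4).resolve_left h2
  have e8 : tf (cr (x 0) (x 1)) (x 2) = 0 := by
    have h3 := H.tf3 w (x 0) (x 1) (x 2)
    rw [(ts2_w0 hx), (ts2_w1 hx), (ts2_w2 hx), cr_neg_right, show -cr (x 2) (x 1) = (-1 : k) • cr (x 2) (x 1) by rw [neg_one_smul],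
      tf_smul_left, cr_comm (x 2) (x 1), ← tf3_symm (x 0) (x 1) (x 2)] at h3
    have h4 : (2 : k) * tf (cr (x 0) (x 1)) (x 2) = 0 := by linear_combination -h3
    exact (mul_eq_zero.1 h4).resolve_left h2
  have e9 : cubicT (x 2) = cubicT (x 0) := by
    have h3 := hw (x 0)
    rwa [(ts2_w0 hx)] at h3
  have e10 : cubicT (x 0) = 0 := by
    have h3 := H.N (u 1) (x 0)
    rw [(ts2_u0 hx), show x 0 + (2 * (ι 1 ^ p ^ i)) • x 1 + ((ι 1 ^ p ^ i) ^ 2) • x 2 =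
      (1 : k) • x 0 + (2 : k) • x 1 + (1 : k) • x 2 by rw [map_one, one_pow, one_pow, mul_one, one_smul, one_smul], N_lin3, e1, e2, e3,
      e4, e5, e6, e7, e8, e9] at h3
    linear_combination h3
  rw [N_lin3, e1, e2, e3, e4, e5, e6, e7, e8, e9, e10]
  ring

/-- the invariant -/
theorem three_w0 (H : Act ρ) (hx : TS ι p ρ 2 i x) (g : Matrix.SpecialLinearGroup (Fin 2) K) :
    ρ g (cr (x 0) (x 2) - (2 : k) • sh (x 1)) = cr (x 0) (x 2) - (2 : k) • sh (x 1) := by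
  refine fix_of (fun t => ?_) (fun a => ?_) ?_ g
  · rw [map_sub, map_smul, H.cr, H.sh, (ts2_u0 hx), (ts2_u1 hx), (ts2_u2 hx), sh_add]
    simp only [cr_add_left, cr_smul_left, cr_smul_right, sh_smul, cr_self]
    module
  · rw [map_sub, map_smul, H.cr, H.sh, (ts2_h0 hx), (ts2_h1 hx), (ts2_h2 hx), cr_smul_left, cr_smul_right, smul_smul]
    have h0 : ι (a : K) ^ p ^ i ≠ 0 := pow_ne_zero _ ((map_ne_zero ι).2 a.ne_zero)
    rw [← mul_pow, inv_mul_cancel₀ h0, one_pow, one_smul]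
  · rw [map_sub, map_smul, H.cr, H.sh, (ts2_w0 hx), (ts2_w1 hx), (ts2_w2 hx), cr_comm,
      show -x 1 = (-1 : k) • x 1 by rw [neg_one_smul], sh_smul]
    module

/-- **the relations** -/
theorem three_MH (H : Act ρ) (hp2 : p ≠ 2) (hQ : 7 ≤ Fintype.card K)
    (hfix : ∀ y : I27 → k, (∀ g, ρ g y = y) → ∃ c : k, y = c • u0 k) (hx : TS ι p ρ 2 i x) :
    ∃ c0 : k, MH (sh (x 0 + x 2)) (sh (x 0 - x 2)) (sh (x 1)) ((2 : k)⁻¹ • cr (x 0 - x 2) (x 1))
      ((2 : k)⁻¹ • cr (x 0 + x 2) (x 1)) ((2 : k)⁻¹ • cr (x 0 + x 2) (x 0 - x 2)) 1 (-1) (-4) c0 := by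
  have h2 := two_ne (k := k) p hp2
  have h4 : (4 : k) ≠ 0 := by
    rw [show (4 : k) = 2 * 2 by norm_num]
    exact mul_ne_zero h2 h2
  obtain ⟨c0, hc0⟩ := hfix _ (three_w0 H hx)
  refine ⟨2 * c0, ?_, one_ne_zero, neg_ne_zero.2 one_ne_zero, neg_ne_zero.2 h4, ?_⟩
  · intro a b c
    have e1 : a ^ 2 • sh (x 0 + x 2) + b ^ 2 • sh (x 0 - x 2) + c ^ 2 • sh (x 1) +
        (2 * b * c) • ((2 : k)⁻¹ • cr (x 0 - x 2) (x 1)) + (2 * a * c) • ((2 : k)⁻¹ • cr (x 0 + x 2) (x 1)) +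
        (2 * a * b) • ((2 : k)⁻¹ • cr (x 0 + x 2) (x 0 - x 2)) =
        sh (a • (x 0 + x 2) + b • (x 0 - x 2) + c • x 1) := by
      rw [sh_add3]
      simp only [sh_smul, cr_smul_left, cr_smul_right, smul_smul]
      have i1 : ∀ s t : k, 2 * s * t * 2⁻¹ = s * t := fun s t => by field_simp
      rw [i1, i1, i1]
      module
    rw [e1, show a • (x 0 + x 2) + b • (x 0 - x 2) + c • x 1 = (a + b) • x 0 + c • x 1 + (a - b) • x 2 by module, sh_sh,
      three_N H hp2 hQ hx, zero_smul]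
  · rw [mul_smul, ← hc0, sub_eq_add_neg (x 0) (x 2), sh_add, sh_add, show -x 2 = (-1 : k) • x 2 by rw [neg_one_smul],
      sh_smul, cr_smul_right]
    module

end Cfsg.Agent.R2.F4L
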