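import Cfsg.Agent.R2.F4L.TupD

/-!
# Construction of tuples (helper2, S5931)

* `ts_of_bot` : tuples from the lowest weight vector.
-/

set_option autoImplicit false
set_option linter.unusedSectionVars false
set_option linter.unusedVariables false

namespace Cfsg.Agent.R2.F4L

open Cfsg.Agent.H943.SL2Rel Cfsg.Agent.H943.SL2Mod Cfsg.Agent.R2.H28.SL2 Cfsg.Agent.H943.RepAdd

universe u v w

variable {k : Type u} [Field k] [DecidableEq k] {K : Type w} [Field K] [Fintype K] [DecidableEq K] {ι : K →+* k}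
variable {p : ℕ} [Fact p.Prime] [CharP k p] [CharP K p] {a : ℕ}
variable {V : Type v} [AddCommGroup V] [Module k V] {ρ : Representation k (Matrix.SpecialLinearGroup (Fin 2) K) V}
variable {n i : ℕ} {z : ℕ → V}

theorem choose_ne' (k : Type u) [Field k] {p : ℕ} [Fact p.Prime] [CharP k p] {n m : ℕ} (hn : n < p) (hm : m ≤ n) :
    (n.choose m : k) ≠ 0 := by
  intro h
  have h1 : p ∣ n.choose m := (CharP.cast_eq_zero_iff k p _).1 h
  have h2 : p ∣ n.factorial := by
    rw [← Nat.choose_mul_factorial_mul_factorial hm, mul_assoc]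
    exact h1.mul_right _
  have h3 := ((Fact.out : p.Prime).dvd_factorial).1 h2
  omega

theorem iota_add (i : ℕ) (r t : K) : ι (r + t) ^ p ^ i = ι r ^ p ^ i + ι t ^ p ^ i := by
  rw [map_add, add_pow_char_pow]

/-- the binomial expansion with vector coefficients -/
theorem binom_vec (A τ : k) (z : ℕ → V) (n : ℕ) :
    ∑ m ∈ Finset.range (n + 1), ((n.choose m : k) * (A + τ) ^ m) • z m =
      ∑ s ∈ Finset.range (n + 1), A ^ s • (n.choose s : k) •
        ∑ j ∈ Finset.range (n - s + 1), (((n - s).choose j : k) * τ ^ j) • z (s + j) := by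
  have h1 : ∀ m ∈ Finset.range (n + 1), ((n.choose m : k) * (A + τ) ^ m) • z m =
      ∑ s ∈ Finset.range (n + 1), (A ^ s * τ ^ (m - s) * (m.choose s : k) * (n.choose m : k)) • z m := by
    intro m hm
    rw [Finset.mem_range] at hm
    rw [add_pow, Finset.mul_sum, Finset.sum_smul]
    have hsub : Finset.range (m + 1) ⊆ Finset.range (n + 1) := Finset.range_mono (by omega)
    rw [← Finset.sum_subset hsub (f := fun s => (A ^ s * τ ^ (m - s) * (m.choose s : k) * (n.choose m : k)) • z m)]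
    · exact Finset.sum_congr rfl fun s _ => by congr 1; ring
    · intro s _ hs
      rw [Finset.mem_range] at hs
      show (A ^ s * τ ^ (m - s) * (m.choose s : k) * (n.choose m : k)) • z m = 0
      rw [Nat.choose_eq_zero_of_lt (by omega)]
      simp
  rw [Finset.sum_congr rfl h1, Finset.sum_comm]
  refine Finset.sum_congr rfl fun s hs => ?_
  rw [Finset.mem_range] at hs
  rw [Finset.smul_sum, Finset.smul_sum]
  have h2 : Finset.range (n + 1) = Finset.range (s + (n - s + 1)) := by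
    congr 1
    omega
  rw [h2, Finset.sum_range_add]
  rw [Finset.sum_eq_zero (s := Finset.range s), zero_add]
  · refine Finset.sum_congr rfl fun j hj => ?_
    rw [Finset.mem_range] at hj
    have h3 : ((s + j).choose s : k) * (n.choose (s + j) : k) = (n.choose s : k) * ((n - s).choose j : k) := by
      have h4 := Nat.choose_mul (n := n) (k := s + j) (s := s) (Nat.le_add_right s j)
      rw [Nat.add_sub_cancel_left] at h4
      rw [← Nat.cast_mul, ← Nat.cast_mul, mul_comm, h4]
    rw [smul_smul, smul_smul, Nat.add_sub_cancel_left]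
    congr 1
    calc A ^ s * τ ^ j * ((s + j).choose s : k) * (n.choose (s + j) : k)
        = A ^ s * τ ^ j * (((s + j).choose s : k) * (n.choose (s + j) : k)) := by ring
      _ = A ^ s * (n.choose s : k) * (((n - s).choose j : k) * τ ^ j) := by rw [h3]; ring
  · intro m hm
    rw [Finset.mem_range] at hm
    rw [Nat.choose_eq_zero_of_lt hm]
    simp

/-- **tuples from the lowest weight vector** -/
theorem ts_of_bot (hn : n < p) (hz : ∀ s, n < s → z s = 0)
    (hu : ∀ t, ρ (u t) (z 0) = ∑ m ∈ Finset.range (n + 1), ((n.choose m : k) * (ι t ^ p ^ i) ^ m) • z m)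
    (hh : ∀ b : Kˣ, ρ (h b) (z 0) = (((ι b ^ p ^ i)⁻¹) ^ n) • z 0)
    (hw : ∀ s ≤ n, ρ w (z s) = (-1 : k) ^ s • z (n - s)) : TS ι p ρ n i z := by
  have hpK := p_le K p
  refine ⟨hz, fun s hs t => ?_, fun s hs b => ?_, hw⟩
  · have h1 : ∀ r : K, ∑ s ∈ Finset.range (n + 1), (ι r ^ p ^ i) ^ s • ((n.choose s : k) • ρ (u t) (z s) -
        (n.choose s : k) • ∑ j ∈ Finset.range (n - s + 1), (((n - s).choose j : k) * (ι t ^ p ^ i) ^ j) • z (s + j)) = 0 := by
      intro r
      have h2 : ρ (Cfsg.Agent.H943.SL2Rel.u t) (ρ (Cfsg.Agent.H943.SL2Rel.u r) (z 0)) = ρ (Cfsg.Agent.H943.SL2Rel.u (r + t)) (z 0) := by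
        rw [add_comm, u_add, map_mul, Module.End.mul_apply]
      rw [hu r, hu (r + t), iota_add, binom_vec, map_sum] at h2
      simp only [smul_sub, Finset.sum_sub_distrib]
      rw [sub_eq_zero, ← h2]
      exact Finset.sum_congr rfl fun s _ => by rw [map_smul, smul_smul, mul_comm]
    have h2 := poly0 ι (by omega) p i h1 s (by omega)
    rw [← smul_sub] at h2
    exact sub_eq_zero.1 ((smul_eq_zero.1 h2).resolve_left (choose_ne' k hn hs))
  · have hb0 : ι (b : K) ^ p ^ i ≠ 0 := pow_ne_zero _ ((map_ne_zero ι).2 b.ne_zero)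
    have h1 : ∀ r : K, ∑ s ∈ Finset.range (n + 1), (ι r ^ p ^ i) ^ s • ((n.choose s : k) • ρ (Cfsg.Agent.H943.SL2Rel.h b) (z s) -
        ((n.choose s : k) * ((ι b ^ p ^ i) ^ s * ((ι b ^ p ^ i)⁻¹) ^ (n - s))) • z s) = 0 := by
      intro r
      have h2 : ρ (Cfsg.Agent.H943.SL2Rel.h b) (ρ (Cfsg.Agent.H943.SL2Rel.u r) (z 0)) =
          ρ (Cfsg.Agent.H943.SL2Rel.u ((b : K) ^ 2 * r)) (ρ (Cfsg.Agent.H943.SL2Rel.h b) (z 0)) := by
        rw [← Module.End.mul_apply, ← Module.End.mul_apply, ← map_mul, ← map_mul, h_u]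
      rw [hh, map_smul, hu, hu, map_sum, Finset.smul_sum] at h2
      simp only [smul_sub, Finset.sum_sub_distrib]
      rw [sub_eq_zero]
      refine Eq.trans (Finset.sum_congr rfl fun s _ => ?_) (h2.trans (Finset.sum_congr rfl fun s hs => ?_))
      · rw [map_smul, smul_smul, mul_comm]
      · rw [Finset.mem_range] at hs
        rw [smul_smul, smul_smul]
        congr 1
        rw [map_mul, map_pow, mul_pow, ← pow_mul, ← pow_mul, mul_pow, ← pow_mul]
        have h3 : ((ι b ^ p ^ i)⁻¹) ^ n * ι b ^ (2 * p ^ i * s) = (ι b ^ p ^ i) ^ s * ((ι b ^ p ^ i)⁻¹) ^ (n - s) := by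
          have e1 : ((ι (b : K) ^ p ^ i)⁻¹) ^ n = ((ι b ^ p ^ i)⁻¹) ^ s * ((ι b ^ p ^ i)⁻¹) ^ (n - s) := by
            rw [← pow_add]
            congr 1
            omega
          have e2 : ι (b : K) ^ (2 * p ^ i * s) = (ι b ^ p ^ i) ^ s * (ι b ^ p ^ i) ^ s := by
            rw [← pow_add, ← pow_mul]
            congr 1
            ring
          have e3 : ((ι (b : K) ^ p ^ i)⁻¹) ^ s * (ι b ^ p ^ i) ^ s = 1 := by
            rw [← mul_pow, inv_mul_cancel₀ hb0, one_pow]
          rw [e1, e2]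
          calc ((ι (b : K) ^ p ^ i)⁻¹) ^ s * ((ι b ^ p ^ i)⁻¹) ^ (n - s) * ((ι b ^ p ^ i) ^ s * (ι b ^ p ^ i) ^ s)
              = (((ι (b : K) ^ p ^ i)⁻¹) ^ s * (ι b ^ p ^ i) ^ s) * ((ι b ^ p ^ i) ^ s * ((ι b ^ p ^ i)⁻¹) ^ (n - s)) := by ring
            _ = _ := by rw [e3, one_mul]
        rw [← h3]
        ring
    have h2 := poly0 ι (by omega) p i h1 s (by omega)
    rw [mul_smul, ← smul_sub] at h2
    exact sub_eq_zero.1 ((smul_eq_zero.1 h2).resolve_left (choose_ne' k hn hs))

end Cfsg.Agent.R2.F4L
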