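import Cfsg.Agent.R2.F4L.Bot

/-!
# Invariant forms on tuples (helper2, S5931)

* `ts_form` : the values of an invariant form on two tuples of type `(n, i)`;
* `ts_of_wt` : Weyl tuples are tuples for `n < p`.
-/

set_option autoImplicit false
set_option linter.unusedSectionVars false
set_option linter.unusedVariables false

namespace Cfsg.Agent.R2.F4L

open Cfsg.Agent.H943.SL2Rel Cfsg.Agent.H943.SL2Mod Cfsg.Agent.R2.H28.SL2 Cfsg.Agent.H943.RepAdd

universe u v w

variable {k : Type u} [Field k] [DecidableEq k] {K : Type w} [Field K] [Fintype K] [DecidableEq K] {ι : K →+* k}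
variable {p : ℕ} [Fact p.Prime] [CharP k p] [CharP K p] {a : ℕ}
variable {V : Type*} [AddCommGroup V] [Module k V] {σ : Representation k (Matrix.SpecialLinearGroup (Fin 2) K) V}
variable {V' : Type*} [AddCommGroup V'] [Module k V'] {σ' : Representation k (Matrix.SpecialLinearGroup (Fin 2) K) V'}
variable {n i : ℕ} {z : ℕ → V} {y : ℕ → V'} {P : V →ₗ[k] V' →ₗ[k] k}

theorem ts_form0 (hP : ∀ g x y, P (σ g x) (σ' g y) = P x y) (hn : n < p) (hz : TS ι p σ n i z) (hy : TS ι p σ' n i y)
    {m : ℕ} (hm1 : 1 ≤ m) (hm : m ≤ n) : P (z n) (y m) = 0 := by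
  have hpK := p_le K p
  have h1 : ∀ t : K, ∑ m ∈ Finset.range (n + 1), (ι t ^ p ^ i) ^ m •
      (if m = 0 then 0 else (n.choose m : k) * P (z n) (y m)) = 0 := by
    intro t
    have h2 := hP (u t) (z n) (y 0)
    rw [hz.u_top, hy.u_bot, map_sum, Finset.sum_range_succ'] at h2
    simp only [map_smul, Nat.choose_zero_right, Nat.cast_one, pow_zero, mul_one, one_smul] at h2
    have h3 := add_eq_right.1 h2
    rw [Finset.sum_range_succ']
    simp only [Nat.succ_ne_zero, if_false, if_true, smul_zero, add_zero]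
    rw [← h3]
    refine Finset.sum_congr rfl fun m _ => ?_
    simp only [smul_eq_mul]
    ring
  have h2 := poly0 ι (by omega) p i h1 m (by omega)
  rw [if_neg (by omega)] at h2
  exact (mul_eq_zero.1 h2).resolve_left (choose_ne' k hn hm)

theorem ts_form1 (hP : ∀ g x y, P (σ g x) (σ' g y) = P x y) (hn : n < p) (hz : TS ι p σ n i z) (hy : TS ι p σ' n i y)
    {m : ℕ} (hm : m < n) : P (z 0) (y m) = 0 := by
  have h1 := hP w (z 0) (y m)
  rw [hz.w 0 (Nat.zero_le _), hy.w m hm.le, pow_zero, one_smul, Nat.sub_zero, map_smul,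
    ts_form0 hP hn hz hy (by omega) (by omega), smul_zero] at h1
  exact h1.symm

/-- **the form** -/
theorem ts_form (hP : ∀ g x y, P (σ g x) (σ' g y) = P x y) (hn : n < p) (hz : TS ι p σ n i z) (hy : TS ι p σ' n i y)
    {s m : ℕ} (hs : s ≤ n) (hm : m ≤ n) :
    P (z s) (y m) = if s + m = n then (-1) ^ s * (n.choose s : k)⁻¹ * P (z 0) (y n) else 0 := by
  have hpK := p_le K p
  have h1 : ∀ r t : K, P (σ (u r) (z 0)) (σ' (u t) (y 0)) = (ι t ^ p ^ i - ι r ^ p ^ i) ^ n * P (z 0) (y n) := by
    intro r t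
    have h2 := hP (u r) (z 0) (σ' (u (t - r)) (y 0))
    rw [← Module.End.mul_apply, ← map_mul, ← u_add, add_sub_cancel] at h2
    rw [h2, hy.u_bot, map_sum, Finset.sum_range_succ, Finset.sum_eq_zero, zero_add]
    · rw [map_smul, Nat.choose_self, Nat.cast_one, one_mul, map_sub, sub_pow_char_pow]
      rfl
    · intro m hm
      rw [Finset.mem_range] at hm
      rw [map_smul, ts_form1 hP hn hz hy hm, smul_zero]
  have h2 : ∀ r : K, ∀ m < n + 1, (n.choose m : k) * P (σ (u r) (z 0)) (y m) -
      ((n.choose m : k) * (-(ι r ^ p ^ i)) ^ (n - m)) * P (z 0) (y n) = 0 := by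
    intro r
    refine poly0 ι (by omega) p i (a := fun m => (n.choose m : k) * P (σ (u r) (z 0)) (y m) -
      ((n.choose m : k) * (-(ι r ^ p ^ i)) ^ (n - m)) * P (z 0) (y n)) fun t => ?_
    have h3 := h1 r t
    rw [hy.u_bot, map_sum, sub_eq_add_neg, add_pow, Finset.sum_mul] at h3
    simp only [smul_sub, Finset.sum_sub_distrib]
    rw [sub_eq_zero]
    refine Eq.trans (Finset.sum_congr rfl fun m _ => ?_) (h3.trans (Finset.sum_congr rfl fun m _ => ?_))
    · rw [map_smul, smul_eq_mul, smul_eq_mul]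
      ring
    · rw [smul_eq_mul]
      ring
  have h3 : ∀ m ≤ n, ∀ s ≤ n, (n.choose s : k) * P (z s) (y m) =
      if s = n - m then (-1) ^ (n - m) * P (z 0) (y n) else 0 := by
    intro m hm s hs
    have h4 : ∀ r : K, ∑ s ∈ Finset.range (n + 1), (ι r ^ p ^ i) ^ s • ((n.choose s : k) * P (z s) (y m) -
        if s = n - m then (-1) ^ (n - m) * P (z 0) (y n) else 0) = 0 := by
      intro r
      have h5 := h2 r m (by omega)
      rw [mul_assoc, ← mul_sub] at h5
      have h6 := (mul_eq_zero.1 h5).resolve_left (choose_ne' k hn hm)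
      rw [hz.u_bot, map_sum, LinearMap.sum_apply] at h6
      simp only [smul_sub, Finset.sum_sub_distrib]
      refine Eq.trans ?_ h6
      congr 1
      · refine Finset.sum_congr rfl fun s _ => ?_
        rw [map_smul, LinearMap.smul_apply, smul_eq_mul, smul_eq_mul]
        ring
      · rw [Finset.sum_eq_single (n - m)]
        · rw [if_pos rfl, smul_eq_mul, neg_pow]
          ring
        · intro s _ hs
          rw [if_neg hs, smul_zero]
        · intro h
          exact absurd (Finset.mem_range.2 (by omega)) h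
    exact sub_eq_zero.1 (poly0 ι (by omega) p i h4 s (by omega))
  have h4 := h3 m hm s hs
  have h5 := choose_ne' k hn hs
  by_cases h : s + m = n
  · rw [if_pos (by omega)] at h4
    rw [if_pos h]
    have h6 : n - m = s := by omega
    rw [h6] at h4
    field_simp
    linear_combination h4
  · rw [if_neg (by omega)] at h4
    rw [if_neg h]
    exact (mul_eq_zero.1 h4).resolve_left h5

end Cfsg.Agent.R2.F4L
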