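import Cfsg.Agent.H952.F4.Jord

/-!
# The symmetric square of a 3-dimensional module and the Albert algebra (helper2, S5931, lemma (M))

`MH q1 q2 q3 p1 p2 p3 c1 c2 c3 c0` : `q_i = β(e_i, e_i)`, `p_i = β(e_j, e_l)` for a symmetric bilinear map `β` from a
3-dimensional space to `J` with `β(x, x)^# = 0` for all `x`, and `c_1 q_1 + c_2 q_2 + c_3 q_3 = c_0 1`, `c_i ≠ 0`.

* `MH.white` : `c_0 = 0` : the span of the `q_i`, `p_i` is white;
* `MH.sh_mem` : `c_0 ≠ 0` : the span is closed under `#`, contains `1`;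
* `MH.gen` : `c_0 ≠ 0` : the span is generated by two elements.
-/

set_option autoImplicit false

namespace Cfsg.Agent.R2.F4L

open Cfsg.Lie
open Cfsg.Agent.ChevalleyStructure.E6Min.Tables Cfsg.Agent.ChevalleyStructure.E6Min.Basic
open Cfsg.Agent.H952.F4 (sh cr tf tr1 u0)
open Cfsg.Agent.H952.F4.Jord

universe u

variable {k : Type u} [Field k]

theorem sh_zero : sh (0 : I27 → k) = 0 := by
  have h := sh_smul (0 : k) (0 : I27 → k)
  rw [zero_smul] at h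
  rw [h]
  simp

theorem cr_zero_left (x : I27 → k) : cr 0 x = 0 := by
  have h := cr_smul_left (0 : k) 0 x
  rw [zero_smul, zero_smul] at h
  exact h

theorem cr_zero_right (x : I27 → k) : cr x 0 = 0 := by rw [cr_comm, cr_zero_left]

theorem cr_neg_left (x y : I27 → k) : cr (-x) y = -cr x y := by
  have h := cr_smul_left (-1 : k) x y
  rwa [neg_one_smul, neg_one_smul] at h

theorem cr_neg_right (x y : I27 → k) : cr x (-y) = -cr x y := by rw [cr_comm, cr_neg_left, cr_comm]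

/-- a quadratic vector polynomial without linear part -/
theorem sh_add3 (x y z : I27 → k) : sh (x + y + z) = sh x + sh y + sh z + cr x y + cr x z + cr y z := by
  rw [sh_add, sh_add, cr_add_left]
  abel

structure MH (q1 q2 q3 p1 p2 p3 : I27 → k) (c1 c2 c3 c0 : k) : Prop where
  sq : ∀ x y z : k, sh (x ^ 2 • q1 + y ^ 2 • q2 + z ^ 2 • q3 + (2 * y * z) • p1 + (2 * x * z) • p2 + (2 * x * y) • p3) = 0
  n1 : c1 ≠ 0
  n2 : c2 ≠ 0
  n3 : c3 ≠ 0
  w : c1 • q1 + c2 • q2 + c3 • q3 = c0 • u0 k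

variable {q1 q2 q3 p1 p2 p3 : I27 → k} {c1 c2 c3 c0 : k}

/-- permutations of the indices -/
theorem MH.swap (h : MH q1 q2 q3 p1 p2 p3 c1 c2 c3 c0) : MH q2 q1 q3 p2 p1 p3 c2 c1 c3 c0 :=
  ⟨fun x y z => by
    have := h.sq y x z
    rw [← this]
    congr 1
    module, h.n2, h.n1, h.n3, by rw [← h.w]; module⟩

theorem MH.rot (h : MH q1 q2 q3 p1 p2 p3 c1 c2 c3 c0) : MH q2 q3 q1 p2 p3 p1 c2 c3 c1 c0 :=
  ⟨fun x y z => by
    have := h.sq z x y
    rw [← this]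
    congr 1
    module, h.n2, h.n3, h.n1, by rw [← h.w]; module⟩

theorem two_cancel (h2 : (2 : k) ≠ 0) {x : I27 → k} (h : (2 : k) • x = 0) : x = 0 :=
  (smul_eq_zero.1 h).resolve_left h2

/-- the relations of one pair -/
theorem MH.pair (h : MH q1 q2 q3 p1 p2 p3 c1 c2 c3 c0) (h2 : (2 : k) ≠ 0) {t : k} (ht : t ≠ 0) (ht2 : t ^ 2 ≠ 1) :
    sh q1 = 0 ∧ cr q1 p3 = 0 ∧ cr q1 q2 = (-4 : k) • sh p3 := by
  have s1 : sh q1 = 0 := by
    have := h.sq 1 0 0
    simpa using this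
  have s2 : sh q2 = 0 := by
    have := h.sq 0 1 0
    simpa using this
  have key : ∀ t : k, (2 * t) • cr q1 p3 + t ^ 2 • (cr q1 q2 + (4 : k) • sh p3) + (2 * t ^ 3) • cr p3 q2 = 0 := by
    intro t
    have h1 : sh (q1 + t ^ 2 • q2 + (2 * t) • p3) = 0 := by
      rw [← h.sq 1 t 0]
      congr 1
      module
    rw [sh_add3, sh_smul, sh_smul, s1, s2, cr_smul_right, cr_smul_right, cr_smul_left, cr_smul_right,
      cr_comm q2 p3] at h1
    rw [← h1]
    module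
  have k1 := key 1
  have k2 := key (-1)
  have k3 := key t
  have a1 : cr q1 q2 + (4 : k) • sh p3 = 0 := by
    apply two_cancel h2
    have : (2 : k) • (cr q1 q2 + (4 : k) • sh p3) = ((2 * (1 : k)) • cr q1 p3 + (1 : k) ^ 2 • (cr q1 q2 + (4 : k) • sh p3) +
        (2 * (1 : k) ^ 3) • cr p3 q2) + ((2 * (-1 : k)) • cr q1 p3 + (-1 : k) ^ 2 • (cr q1 q2 + (4 : k) • sh p3) +
        (2 * (-1 : k) ^ 3) • cr p3 q2) := by module
    rw [this, k1, k2, add_zero]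
  rw [a1] at k1 k3
  have a2 : cr q1 p3 + cr p3 q2 = 0 := by
    apply two_cancel h2
    rw [← k1]
    module
  have a3 : cr q1 p3 + t ^ 2 • cr p3 q2 = 0 := by
    have : (2 * t) • (cr q1 p3 + t ^ 2 • cr p3 q2) = 0 := by
      rw [← k3]
      module
    exact (smul_eq_zero.1 this).resolve_left (mul_ne_zero h2 ht)
  have a4 : (t ^ 2 - 1) • cr p3 q2 = 0 := by
    have : (t ^ 2 - 1) • cr p3 q2 = (cr q1 p3 + t ^ 2 • cr p3 q2) - (cr q1 p3 + cr p3 q2) := by module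
    rw [this, a3, a2, sub_zero]
  have a5 : cr p3 q2 = 0 := (smul_eq_zero.1 a4).resolve_left (sub_ne_zero.2 ht2)
  rw [a5, add_zero] at a2
  refine ⟨s1, a2, ?_⟩
  have : cr q1 q2 = (cr q1 q2 + (4 : k) • sh p3) - (4 : k) • sh p3 := by module
  rw [this, a1]
  module

/-- all relations -/
structure MR (q1 q2 q3 p1 p2 p3 : I27 → k) : Prop where
  s1 : sh q1 = 0
  s2 : sh q2 = 0
  s3 : sh q3 = 0
  z12 : cr q1 p2 = 0
  z13 : cr q1 p3 = 0
  z21 : cr q2 p1 = 0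
  z23 : cr q2 p3 = 0
  z31 : cr q3 p1 = 0
  z32 : cr q3 p2 = 0
  r3 : cr q1 q2 = (-4 : k) • sh p3
  r2 : cr q1 q3 = (-4 : k) • sh p2
  r1 : cr q2 q3 = (-4 : k) • sh p1
  m1 : cr q1 p1 = (-2 : k) • cr p2 p3
  m2 : cr q2 p2 = (-2 : k) • cr p1 p3
  m3 : cr q3 p3 = (-2 : k) • cr p1 p2

theorem MH.rel (h : MH q1 q2 q3 p1 p2 p3 c1 c2 c3 c0) (h2 : (2 : k) ≠ 0) {t : k} (ht : t ≠ 0) (ht2 : t ^ 2 ≠ 1) :
    MR q1 q2 q3 p1 p2 p3 := by
  obtain ⟨s1, z13, r3⟩ := h.pair h2 ht ht2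
  obtain ⟨s2, z23, -⟩ := h.swap.pair h2 ht ht2
  obtain ⟨-, z21, r1⟩ := h.rot.pair h2 ht ht2
  obtain ⟨s3, z32, r2'⟩ := h.rot.rot.pair h2 ht ht2
  obtain ⟨-, z12, r2⟩ := h.rot.rot.swap.pair h2 ht ht2
  obtain ⟨-, z31, -⟩ := h.rot.swap.pair h2 ht ht2
  have r3' : sh p3 = (-4 : k)⁻¹ • cr q1 q2 := by
    have h4 : (-4 : k) ≠ 0 := by
      have : (-4 : k) = -(2 * 2) := by norm_num
      rw [this]
      exact neg_ne_zero.2 (mul_ne_zero h2 h2)
    rw [r3, smul_smul, inv_mul_cancel₀ h4, one_smul]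
  have key : ∀ y z : k, (y * z) • (cr q1 p1 + (2 : k) • cr p2 p3) + (y ^ 2 * z) • (cr q2 p2 + (2 : k) • cr p1 p3) +
      (y * z ^ 2) • (cr q3 p3 + (2 : k) • cr p1 p2) = 0 := by
    intro y z
    have h1 := h.sq 1 y z
    have e1 : ((1 : k) ^ 2 • q1 + y ^ 2 • q2 + z ^ 2 • q3 + (2 * y * z) • p1 + (2 * 1 * z) • p2 + (2 * 1 * y) • p3) =
        (q1 + y ^ 2 • q2 + z ^ 2 • q3) + ((2 * y * z) • p1 + (2 * z) • p2 + (2 * y) • p3) := by module
    have z12' : cr p2 q1 = 0 := by rw [cr_comm]; exact z12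
    rw [e1, sh_add, sh_add3, sh_add3] at h1
    simp only [sh_smul, cr_add_left, cr_add_right, cr_smul_left, cr_smul_right, s1, s2, s3, z12, z13, z21, z23, z31, z32,
      r3, r2, r1, smul_zero, zero_add, add_zero] at h1
    apply two_cancel h2
    rw [← h1]
    module
  have k1 := key 1 1
  have k2 := key 1 (-1)
  have k3 := key (-1) 1
  set A := cr q1 p1 + (2 : k) • cr p2 p3 with hA
  set B := cr q2 p2 + (2 : k) • cr p1 p3 with hB
  set C := cr q3 p3 + (2 : k) • cr p1 p2 with hC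
  have hC0 : C = 0 := by
    apply two_cancel h2
    have : (2 : k) • C = (((1 : k) * 1) • A + ((1 : k) ^ 2 * 1) • B + ((1 : k) * 1 ^ 2) • C) +
      (((1 : k) * (-1)) • A + ((1 : k) ^ 2 * (-1)) • B + ((1 : k) * (-1) ^ 2) • C) := by module
    rw [this, k1, k2, add_zero]
  have hB0 : B = 0 := by
    apply two_cancel h2
    have : (2 : k) • B = (((1 : k) * 1) • A + ((1 : k) ^ 2 * 1) • B + ((1 : k) * 1 ^ 2) • C) +
      (((-1 : k) * 1) • A + ((-1 : k) ^ 2 * 1) • B + ((-1 : k) * 1 ^ 2) • C) := by module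
    rw [this, k1, k3, add_zero]
  have hA0 : A = 0 := by
    rw [hB0, hC0] at k1
    simpa using k1
  refine ⟨s1, s2, s3, z12, z13, z21, z23, z31, z32, r3, r2, r1, ?_, ?_, ?_⟩
  · rw [neg_smul]
    exact eq_neg_of_add_eq_zero_left hA0
  · rw [neg_smul]
    exact eq_neg_of_add_eq_zero_left hB0
  · rw [neg_smul]
    exact eq_neg_of_add_eq_zero_left hC0

/-- the adjoint of a general element -/
theorem MR.sh_eq (R : MR q1 q2 q3 p1 p2 p3) (a1 a2 a3 b1 b2 b3 : k) :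
    (4 : k) • sh (a1 • q1 + a2 • q2 + a3 • q3 + b1 • p1 + b2 • p2 + b3 • p3) =
      (4 * a1 * a2 - b3 ^ 2) • cr q1 q2 + (4 * a1 * a3 - b2 ^ 2) • cr q1 q3 + (4 * a2 * a3 - b1 ^ 2) • cr q2 q3 +
      (4 * a1 * b1 - 2 * b2 * b3) • cr q1 p1 + (4 * a2 * b2 - 2 * b1 * b3) • cr q2 p2 +
      (4 * a3 * b3 - 2 * b1 * b2) • cr q3 p3 := by
  have e1 : a1 • q1 + a2 • q2 + a3 • q3 + b1 • p1 + b2 • p2 + b3 • p3 =
      (a1 • q1 + a2 • q2 + a3 • q3) + (b1 • p1 + b2 • p2 + b3 • p3) := by module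
  rw [e1, sh_add, sh_add3, sh_add3]
  simp only [sh_smul, cr_add_left, cr_add_right, cr_smul_left, cr_smul_right, R.s1, R.s2, R.s3, R.z12, R.z13, R.z21,
    R.z23, R.z31, R.z32, R.r3, R.r2, R.r1, R.m1, R.m2, R.m3, smul_zero, zero_add, add_zero]
  module

theorem four_cancel (h2 : (2 : k) ≠ 0) {x : I27 → k} (h : (4 : k) • x = 0) : x = 0 := by
  apply two_cancel h2
  apply two_cancel h2
  rw [← h]
  module

/-- the products with the sum of the squares -/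
theorem MH.prod (h : MH q1 q2 q3 p1 p2 p3 c1 c2 c3 c0) (y : I27 → k) :
    c1 • cr q1 y + c2 • cr q2 y + c3 • cr q3 y = c0 • (tr1 y • u0 k - y) := by
  rw [← cr_u0, ← cr_smul_left, ← cr_smul_left, ← cr_smul_left, ← cr_add_left, ← cr_add_left, h.w, cr_smul_left]

/-- **the case `c_0 = 0`** -/
theorem MH.white (h : MH q1 q2 q3 p1 p2 p3 c1 c2 c3 0) (h2 : (2 : k) ≠ 0) {t : k} (ht : t ≠ 0) (ht2 : t ^ 2 ≠ 1)
    (a1 a2 a3 b1 b2 b3 : k) : sh (a1 • q1 + a2 • q2 + a3 • q3 + b1 • p1 + b2 • p2 + b3 • p3) = 0 := by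
  have R := h.rel h2 ht ht2
  have S : ∀ {x : I27 → k}, sh x = 0 → cr x x = 0 := fun hx => by rw [cr_self, hx, smul_zero]
  have E1 := h.prod q1
  have E2 := h.prod q2
  have E3 := h.prod q3
  have P1 := h.prod p1
  have P2 := h.prod p2
  have P3 := h.prod p3
  rw [S R.s1, cr_comm q2 q1, cr_comm q3 q1, zero_smul, smul_zero, zero_add] at E1
  rw [S R.s2, cr_comm q3 q2, zero_smul, smul_zero, add_zero] at E2
  rw [S R.s3, zero_smul, smul_zero, add_zero] at E3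
  rw [R.z21, R.z31, zero_smul, smul_zero, smul_zero, add_zero, add_zero] at P1
  rw [R.z12, R.z32, zero_smul, smul_zero, smul_zero, zero_add, add_zero] at P2
  rw [R.z13, R.z23, zero_smul, smul_zero, smul_zero, zero_add, zero_add] at P3
  have r3 : cr q1 q2 = 0 := by
    have : (2 * (c1 * c2)) • cr q1 q2 = c1 • (c2 • cr q1 q2 + c3 • cr q1 q3) + c2 • (c1 • cr q1 q2 + c3 • cr q2 q3) -
        c3 • (c1 • cr q1 q3 + c2 • cr q2 q3) := by module
    rw [E1, E2, E3, smul_zero, smul_zero, smul_zero, add_zero, sub_zero] at this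
    exact (smul_eq_zero.1 this).resolve_left (mul_ne_zero h2 (mul_ne_zero h.n1 h.n2))
  rw [r3, smul_zero, zero_add] at E1 E2
  have r2 : cr q1 q3 = 0 := (smul_eq_zero.1 E1).resolve_left h.n3
  have r1 : cr q2 q3 = 0 := (smul_eq_zero.1 E2).resolve_left h.n3
  have m1 : cr q1 p1 = 0 := (smul_eq_zero.1 P1).resolve_left h.n1
  have m2 : cr q2 p2 = 0 := (smul_eq_zero.1 P2).resolve_left h.n2
  have m3 : cr q3 p3 = 0 := (smul_eq_zero.1 P3).resolve_left h.n3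
  apply four_cancel h2
  rw [R.sh_eq, r1, r2, r3, m1, m2, m3]
  simp

theorem u0_ne : u0 k ≠ 0 := by
  intro h
  have h1 : tr1 (u0 k) = 0 := by rw [h]; simp [tr1, Matrix.trace, mat3]
  have h2 : sh (u0 k) = u0 k := sh_u0
  have h3 : cubicT (u0 k) = 1 := N_u0
  rw [h] at h3
  have h4 := N_smul (0 : k) (0 : I27 → k)
  rw [zero_smul, h3] at h4
  norm_num at h4

/-- the traces -/
theorem MH.tr (h : MH q1 q2 q3 p1 p2 p3 c1 c2 c3 c0) (h2 : (2 : k) ≠ 0) {t : k} (ht : t ≠ 0) (ht2 : t ^ 2 ≠ 1)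
    (h0 : c0 ≠ 0) : c1 * tr1 q1 = c0 ∧ (c2 * c3) • cr q2 q3 = (c0 * c1) • q1 := by
  have R := h.rel h2 ht ht2
  have S : ∀ {x : I27 → k}, sh x = 0 → cr x x = 0 := fun hx => by rw [cr_self, hx, smul_zero]
  have E1 := h.prod q1
  have E2 := h.prod q2
  have E3 := h.prod q3
  rw [S R.s1, cr_comm q2 q1, cr_comm q3 q1, smul_zero, zero_add] at E1
  rw [S R.s2, cr_comm q3 q2, smul_zero, add_zero] at E2
  rw [S R.s3, smul_zero, add_zero] at E3
  have hw := h.w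
  have htr : c1 * tr1 q1 + c2 * tr1 q2 + c3 * tr1 q3 = 3 * c0 := by
    have := congrArg tr1 hw
    rw [tr1_add, tr1_add, tr1_smul, tr1_smul, tr1_smul, tr1_smul, tr1_u0] at this
    linear_combination this
  have key : (c2 * c3) • cr q2 q3 = (c0 * (c0 - c1 * tr1 q1)) • u0 k + (c0 * c1) • q1 := by
    have k1 : (2 : k) • ((c2 * c3) • cr q2 q3 - ((c0 * (c0 - c1 * tr1 q1)) • u0 k + (c0 * c1) • q1)) = 0 := by
      have e1 : (2 : k) • ((c2 * c3) • cr q2 q3) = c2 • (c1 • cr q1 q2 + c3 • cr q2 q3) + c3 • (c1 • cr q1 q3 + c2 • cr q2 q3) -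
        c1 • (c2 • cr q1 q2 + c3 • cr q1 q3) := by module
      rw [E1, E2, E3] at e1
      have e2 : c2 • q2 + c3 • q3 = c0 • u0 k - c1 • q1 := by rw [← hw]; module
      have e3 : c2 • (c0 • (tr1 q2 • u0 k - q2)) + c3 • (c0 • (tr1 q3 • u0 k - q3)) - c1 • (c0 • (tr1 q1 • u0 k - q1)) =
          (c0 * (c2 * tr1 q2 + c3 * tr1 q3 - c1 * tr1 q1)) • u0 k - c0 • (c2 • q2 + c3 • q3) + (c0 * c1) • q1 := by module
      have e4 : c2 * tr1 q2 + c3 * tr1 q3 - c1 * tr1 q1 = 3 * c0 - 2 * (c1 * tr1 q1) := by linear_combination htr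
      rw [smul_sub, e1, e3, e2, e4]
      module
    exact sub_eq_zero.1 (two_cancel h2 k1)
  have hsh : sh ((c2 * c3) • cr q2 q3) = 0 := by
    have h1 := sh_cr q2 q3
    rw [R.s2, R.s3, cr_zero_left, add_zero] at h1
    have z1 : ∀ y : I27 → k, tf 0 y = 0 := fun y => by
      have := tf_smul_left (0 : k) 0 y
      rwa [zero_smul, zero_mul] at this
    rw [z1, tf_comm, z1, zero_smul, zero_smul, add_zero] at h1
    rw [sh_smul, h1, smul_zero]
  rw [key] at hsh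
  set α := c0 * (c0 - c1 * tr1 q1) with hα
  set β := c0 * c1 with hβ
  have hβ0 : β ≠ 0 := mul_ne_zero h0 h.n1
  have e5 : (α * (α + β * tr1 q1)) • u0 k = (α * β) • q1 := by
    rw [sh_add, sh_smul, sh_smul, sh_u0, R.s1, cr_smul_left, cr_smul_right, cr_u0] at hsh
    have : (α * (α + β * tr1 q1)) • u0 k - (α * β) • q1 =
        α ^ 2 • u0 k + β ^ 2 • (0 : I27 → k) + α • β • (tr1 q1 • u0 k - q1) := by module
    rw [hsh] at this
    exact sub_eq_zero.1 this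
  have hα0 : α = 0 := by
    by_contra hne
    have e6 : (α + β * tr1 q1) • u0 k = β • q1 := by
      have : α • ((α + β * tr1 q1) • u0 k - β • q1) = 0 := by
        rw [smul_sub, smul_smul, smul_smul, e5, sub_self]
      exact sub_eq_zero.1 ((smul_eq_zero.1 this).resolve_left hne)
    have e7 := congrArg sh e6
    rw [sh_smul, sh_smul, R.s1, smul_zero, sh_u0] at e7
    have e8 : α + β * tr1 q1 = 0 := by
      rcases smul_eq_zero.1 e7 with h | h
      · exact pow_eq_zero_iff (by norm_num) |>.1 h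
      · exact absurd h u0_ne
    rw [e8, zero_smul] at e6
    have e9 : q1 = 0 := (smul_eq_zero.1 e6.symm).resolve_left hβ0
    have e10 : tr1 q1 = 0 := by
      rw [e9]
      have := tr1_smul (0 : k) (0 : I27 → k)
      rwa [zero_smul, zero_mul] at this
    rw [e10, mul_zero, add_zero] at e8
    exact hne e8
  have h3 : c0 - c1 * tr1 q1 = 0 := (mul_eq_zero.1 hα0).resolve_left h0
  refine ⟨(sub_eq_zero.1 h3).symm, ?_⟩
  rw [key, hα0, zero_smul, zero_add]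

/-- **the case `c_0 ≠ 0`** : generation by two elements -/
theorem MH.gen (h : MH q1 q2 q3 p1 p2 p3 c1 c2 c3 c0) (h2 : (2 : k) ≠ 0) {t : k} (ht : t ≠ 0) (ht2 : t ^ 2 ≠ 1)
    (h0 : c0 ≠ 0) {U : Submodule k (I27 → k)} (hu : u0 k ∈ U) (hcr : ∀ a ∈ U, ∀ b ∈ U, cr a b ∈ U)
    (hx : c2 • q2 + (t * c3) • q3 ∈ U) (hy : p1 + p3 ∈ U) : (q1 ∈ U ∧ q2 ∈ U ∧ q3 ∈ U) ∧ p1 ∈ U ∧ p2 ∈ U ∧ p3 ∈ U := by
  have R := h.rel h2 ht ht2
  obtain ⟨-, hq⟩ := h.tr h2 ht ht2 h0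
  have ht1 : t - 1 ≠ 0 := by
    intro h1
    apply ht2
    rw [sub_eq_zero.1 h1, one_pow]
  have can : ∀ {c : k} {x : I27 → k}, c ≠ 0 → c • x ∈ U → x ∈ U := fun {c x} hc hx => by
    have := U.smul_mem c⁻¹ hx
    rwa [smul_smul, inv_mul_cancel₀ hc, one_smul] at this
  -- `q1`
  have a1 : q1 ∈ U := by
    have h3 := hcr _ hx _ hx
    have h4 : cr (c2 • q2 + (t * c3) • q3) (c2 • q2 + (t * c3) • q3) = (2 * t * (c0 * c1)) • q1 := by
      rw [cr_self, sh_add, sh_smul, sh_smul, R.s2, R.s3, cr_smul_left, cr_smul_right]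
      have : (2 : k) • (c2 ^ 2 • (0 : I27 → k) + (t * c3) ^ 2 • (0 : I27 → k) + c2 • (t * c3) • cr q2 q3) =
          (2 * t) • ((c2 * c3) • cr q2 q3) := by module
      rw [this, hq, smul_smul]
    rw [h4] at h3
    exact can (mul_ne_zero (mul_ne_zero h2 ht) (mul_ne_zero h0 h.n1)) h3
  have a2 : c2 • q2 + c3 • q3 ∈ U := by
    have : c2 • q2 + c3 • q3 = c0 • u0 k - c1 • q1 := by rw [← h.w]; module
    rw [this]
    exact U.sub_mem (U.smul_mem _ hu) (U.smul_mem _ a1)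
  have a3 : q3 ∈ U := by
    have h3 := U.sub_mem hx a2
    have : c2 • q2 + (t * c3) • q3 - (c2 • q2 + c3 • q3) = ((t - 1) * c3) • q3 := by module
    rw [this] at h3
    exact can (mul_ne_zero ht1 h.n3) h3
  have a4 : q2 ∈ U := by
    have h3 := U.sub_mem a2 (U.smul_mem c3 a3)
    rw [add_sub_cancel_right] at h3
    exact can h.n2 h3
  have P1 := h.prod p1
  have P2 := h.prod p2
  rw [R.z21, R.z31, smul_zero, smul_zero, add_zero, add_zero] at P1
  rw [R.z12, R.z32, smul_zero, smul_zero, zero_add, add_zero] at P2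
  have fin : ∀ {z : I27 → k}, c0 • (tr1 z • u0 k - z) ∈ U → z ∈ U := fun {z} hz => by
    have h3 := U.sub_mem (U.smul_mem (tr1 z) hu) (can h0 hz)
    rwa [sub_sub_cancel] at h3
  have b1 : p1 ∈ U := by
    apply fin
    rw [← P1]
    apply U.smul_mem
    have h3 := hcr _ a1 _ hy
    rwa [cr_add_right, R.z13, add_zero] at h3
  have b3 : p3 ∈ U := by
    have h3 := U.sub_mem hy b1
    rwa [add_sub_cancel_left] at h3
  have b2 : p2 ∈ U := by
    apply fin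
    rw [← P2]
    apply U.smul_mem
    rw [R.m2]
    exact U.smul_mem _ (hcr _ b1 _ b3)
  exact ⟨⟨a1, a4, a3⟩, b1, b2, b3⟩

end Cfsg.Agent.R2.F4L
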