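import Cfsg.Agent.R2.F4L.N7a
import Cfsg.Agent.R2.H28.SL2.Form2

/-!
# `p = 7` : the rule for `V_{4 p^i}` (helper2, S5931)
-/

set_option autoImplicit false
set_option linter.unusedSectionVars false
set_option linter.unusedVariables false

namespace Cfsg.Agent.R2.F4L

open Cfsg.Lie
open Cfsg.Agent.ChevalleyStructure.E6Min.Tables Cfsg.Agent.ChevalleyStructure.E6Min.Basic
open Cfsg.Agent.H952.F4 (sh cr tf tr1 u0)
open Cfsg.Agent.H952.F4.Jord
open Cfsg.Agent.H943.SL2Rel Cfsg.Agent.H943.SL2Mod Cfsg.Agent.R2.H28.SL2 Cfsg.Agent.H943.RepAdd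
open Cfsg.Agent.R2.F4T (Iso Nd SD)
open scoped TensorProduct

universe u v w

variable {k : Type u} [Field k] [DecidableEq k] {K : Type w} [Field K] [Fintype K] [DecidableEq K] {ι : K →+* k}
variable {p : ℕ} [Fact p.Prime] [CharP k p] [CharP K p] {a : ℕ}
variable {ρ : Representation k (Matrix.SpecialLinearGroup (Fin 2) K) (I27 → k)}
variable {V : Type v} [AddCommGroup V] [Module k V] {σ : Representation k (Matrix.SpecialLinearGroup (Fin 2) K) V}
variable {j : V →ₗ[k] (I27 → k)} {i : ℕ}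

theorem Em.sd (E : Em ρ σ j) (H : Act ρ) (h3 : (3 : k) ≠ 0) : SD σ (Pj j) :=
  ⟨E.dul H h3, fun x y => by rw [Pj_apply, Pj_apply, tf_comm]⟩

/-- the factors of the square, `p = 7` -/
theorem sqs7 (ha : 2 ≤ a) : sqs 7 a i 4 = {7 ^ i + 7 ^ ((i + 1) % a), 4 * 7 ^ i, 4 * 7 ^ i, 0} := by
  show one 7 a i 8 + (one 7 a i 4 + {0}) = _
  have h1 : one 7 a i 8 = {7 ^ i + 7 ^ ((i + 1) % a), 4 * 7 ^ i} := by
    unfold Cfsg.Agent.R2.H28.SL2.one ov
    rw [if_neg (by norm_num), if_neg (by omega)]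
    norm_num
  have h2 : one 7 a i 4 = {4 * 7 ^ i} := by
    unfold Cfsg.Agent.R2.H28.SL2.one
    rw [if_pos (by norm_num)]
  rw [h1, h2]
  rfl

variable [IsAlgClosed k] [FiniteDimensional k V]

/-- the span of the products -/
theorem exists_I (C : Cx ι p a ρ) (E : Em ρ σ j) (hi : i < a) {X : Submodule k V} {hX : ∀ g, ∀ x ∈ X, σ g x ∈ X}
    (hVX : IsV ι p (subRep σ X hX) (4 * p ^ i)) :
    ∃ (I : Submodule k V) (hI : ∀ g, ∀ x ∈ I, σ g x ∈ I), (∀ m ∈ X, ∀ n ∈ X, stV E C.three m n ∈ I) ∧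
      cf (Sy.{u, v, w} ι p) (subRep σ I hI) ≤ sqs p a i 4 := by
  have hp5 := C.hp5
  obtain ⟨T, hT1, hT2, -⟩ := exists_sqL (σ := subRep σ X hX) (ρ := σ) ((stV E C.three).compl₁₂ X.subtype X.subtype)
    (fun x y => stV_comm E C.three _ _) (fun g x y => stV_eqv E C.act C.three g _ _)
  obtain ⟨hk, hr, h1, -⟩ := cf_exact (Sy.{u, v, w} ι p) (Sq (subRep σ X hX)) σ T hT2
  refine ⟨LinearMap.range T, hr, fun m hm n hn => ⟨_, hT1 ⟨m, hm⟩ ⟨n, hn⟩⟩, ?_⟩
  rw [← cf_sq_single ι p C.card (by omega : 4 < p) hi hVX, h1]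
  exact Multiset.le_add_left _ _

/-- **`p = 7`** -/
theorem n47_core (C : Cx ι p a ρ) (E : Em ρ σ j) (hp : p = 7) (ha : 2 ≤ a) (hi : i < a)
    (h0 : 0 ∉ cf (Sy.{u, v, w} ι p) σ)
    (hb1 : InSoc ι p σ (p ^ i + p ^ ((i + 1) % a)) → (cf (Sy.{u, v, w} ι p) σ).count (p ^ i + p ^ ((i + 1) % a)) ≤ 1)
    (hb2 : (cf (Sy.{u, v, w} ι p) σ).count (p ^ i + p ^ ((i + 1) % a)) ≤ 1 ∨
      (cf (Sy.{u, v, w} ι p) σ).count (4 * p ^ i) ≤ 2)
    {x : ℕ → V} (hx : TS ι p σ 4 i x) (hx4 : stV E C.three (x 4) (x 4) ≠ 0) :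
    ∃ (Y : Submodule k V) (hY : ∀ g, ∀ x ∈ Y, σ g x ∈ Y), Nd (Pj j) Y ∧
      cf (Sy.{u, v, w} ι p) (subRep σ Y hY) = {4 * p ^ i, 4 * p ^ i, p ^ i + p ^ ((i + 1) % a)} := by
  have hp5 := C.hp5
  have hpr : p.Prime := Fact.out
  have hb := C.lt_card (n := 4) (i := i) (by omega) hi
  have S := E.sd C.act C.three
  have hinv : ∀ g x y, Pj j (σ g x) (σ g y) = Pj j x y := S.dul.1
  have hQ : 49 ≤ Fintype.card K := by
    rw [C.card, hp]
    calc 49 = 7 ^ 2 := by norm_num
      _ ≤ 7 ^ a := Nat.pow_le_pow_right (by norm_num) ha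
  set β := stV E C.three with hβd
  have hs : ∀ x y, β x y = β y x := stV_comm E C.three
  have hβ : ∀ g x y, β (σ g x) (σ g y) = σ g (β x y) := fun g x y => stV_eqv E C.act C.three g x y
  have hD := wt_Ds hs hβ (by omega) hx
  set D := Ds β x with hDd
  have hD8 : D 8 ≠ 0 := hx4
  set B := p ^ i + p ^ ((i + 1) % a) with hB
  have hBF : B ≠ 4 * p ^ i := by
    intro h
    have h1 := card_lab ι hp C.card ha hi
    rw [← hB, h, card_Bf_single' (by omega) C hi] at h1
    omega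
  set W := Submodule.span k (Set.range D) with hWd
  have hW : ∀ g, ∀ x ∈ W, σ g x ∈ W := hD.span_st
  have mD : ∀ s, D s ∈ W := fun s => Submodule.subset_span ⟨s, rfl⟩
  -- the weights
  obtain ⟨lam, hlam⟩ := exists_prim (k := k) ι i p
  set μ := ι (lam : K) ^ p ^ i with hμ
  have hμ0 : μ ≠ 0 := pow_ne_zero _ ((map_ne_zero ι).2 lam.ne_zero)
  have hTD : ∀ s ≤ 8, σ (h lam) (D s) = μ ^ (2 * (s : ℤ) - 8) • D s := fun s hs' => by
    have := hD.h' hs' lam
    exact_mod_cast this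
  have hT11 : σ (h lam) (β (x 1) (x 1)) = μ ^ (-4 : ℤ) • β (x 1) (x 1) := by
    rw [← hβ, ts4_h hx (by norm_num), map_smul, map_smul, LinearMap.smul_apply, smul_smul, ← zpow_add₀ hμ0]
    norm_num
  have hT88 : σ (h lam) (D 8) = μ ^ (8 : ℤ) • D 8 := by
    have := hTD 8 le_rfl
    rwa [show (2 * ((8 : ℕ) : ℤ) - 8) = 8 by norm_num] at this
  have hn8 : μ ^ (8 : ℤ) ∉ Sx μ 8 := not_mem_Sx hlam (by omega) (by norm_num) (by norm_num)
  have hn4 : μ ^ (-4 : ℤ) ∉ Sx μ (-4) := not_mem_Sx hlam (by omega) (by norm_num) (by norm_num)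
  have tw : ∀ {r : ℕ → V}, TS ι p σ 4 i r → ∀ s, ∃ m : ℤ, -4 ≤ m ∧ m ≤ 4 ∧ σ (h lam) (r s) = μ ^ m • r s := by
    intro r hr s
    by_cases hs4 : s ≤ 4
    · exact ⟨2 * (s : ℤ) - 4, by omega, by omega, ts4_h hr hs4 lam⟩
    · exact ⟨0, by norm_num, by norm_num, by rw [hr.zero s (by omega), map_zero, smul_zero]⟩
  have F1 : ∀ G : Set V, (∀ g ∈ G, ∃ m : ℤ, -4 ≤ m ∧ m ≤ 4 ∧ σ (h lam) g = μ ^ m • g) → D 8 ∉ Submodule.span k G := by
    intro G hG h8
    have h1 := wt_mem (T := σ (h lam)) (M := ⊥) hn8 (fun g hg => by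
      obtain ⟨m, h1, h2, h3⟩ := hG g hg
      exact Or.inr ⟨_, mem_Sx (by omega) (by omega) (by omega), h3⟩) h8 hT88
    exact hD8 ((Submodule.mem_bot k).1 h1)
  have hy := ts_Yt hp hD
  set y := Yt D with hyd
  set X' := Submodule.span k (Set.range y) with hX'd
  have my : ∀ s, y s ∈ X' := fun s => Submodule.subset_span ⟨s, rfl⟩
  have hX'W : X' ≤ W := by
    rw [hX'd, Submodule.span_le]
    rintro _ ⟨s, rfl⟩
    exact Yt_mem D s
  have hD8X : D 8 ∉ X' := F1 _ (by
    rintro _ ⟨s, rfl⟩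
    exact tw hy s)
  -- the vectors of weight `-4`
  have F2 : ∀ {M : Submodule k V}, D 2 ∈ M → ∀ {z : V}, z ∈ W → σ (h lam) z = μ ^ (-4 : ℤ) • z → z ∈ M := by
    intro M hM z hz hTz
    refine wt_mem (T := σ (h lam)) (M := M) hn4 (fun g hg => ?_) hz hTz
    obtain ⟨s, rfl⟩ := hg
    by_cases hs8 : s ≤ 8
    · by_cases hs2 : s = 2
      · left
        subst hs2
        have := hTD 2 (by norm_num)
        rw [show (2 * ((2 : ℕ) : ℤ) - 8) = -4 by norm_num] at this
        exact ⟨this, hM⟩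
      · right
        exact ⟨_, mem_Sx (by omega) (by omega) (by omega), hTD s hs8⟩
    · left
      rw [hD.zero s (by omega)]
      exact ⟨by rw [map_zero, smul_zero], M.zero_mem⟩
  have trick : ∀ {M : Submodule k V}, (∀ g, ∀ z ∈ M, σ g z ∈ M) → β (x 1) (x 1) ∈ M → D 8 ∈ M := fun hM h =>
    top_mem hs hβ (by omega) hx hM h
  -- `y ≠ 0`
  have hy0 : y ≠ 0 := by
    intro hy0
    have hz26 : ∀ s, 2 ≤ s → s ≤ 6 → D s = 0 := by
      intro s h2 h6
      have h1 := mem_Yt (k := k) D h2 h6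
      rw [← hyd, hy0] at h1
      have h3 : Submodule.span k (Set.range (0 : ℕ → V)) = ⊥ := by
        rw [Submodule.span_eq_bot]
        rintro _ ⟨s, rfl⟩
        rfl
      rw [h3, Submodule.mem_bot] at h1
      exact h1
    let z : ℕ → W := fun s => ⟨D s, mD s⟩
    have hz : WT ι p (subRep σ W hW) 8 i z := WT.comap (ρ' := σ) W.subtype (fun _ _ => rfl) W.injective_subtype hD
    have hcf := cf_top8 hp C.card ha hi hz (fun s h2 h6 => Subtype.ext (hz26 s h2 h6)) (by
      rintro ⟨m, hm⟩ -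
      have h1 : m ∈ (Submodule.span k (Set.range z)).map W.subtype := by
        rw [Submodule.map_span]
        refine Submodule.span_mono ?_ hm
        rintro _ ⟨s, rfl⟩
        exact ⟨z s, ⟨s, rfl⟩, rfl⟩
      obtain ⟨m', hm', he⟩ := h1
      have : (⟨m, hm⟩ : W) = m' := Subtype.ext he.symm
      rw [this]
      exact hm') (fun h => hD8 (congrArg Subtype.val h))
    have hVW : IsV ι p (subRep σ W hW) B := irr_of_cf _ hcf
    have hcB := hb1 ⟨W, hW, hVW⟩
    rcases S.nd_or_iso hVW with hnd | hiso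
    · have hcomp := S.compl hW hnd
      have h1 : β (x 1) (x 1) ∈ W ⊔ orth (Pj j) W := by
        rw [hcomp.sup_eq_top]
        trivial
      obtain ⟨w1, hw1, w2, hw2, he⟩ := Submodule.mem_sup.1 h1
      have hTw : σ (h lam) w1 = μ ^ (-4 : ℤ) • w1 := by
        have h2 := hT11
        rw [← he, map_add, smul_add] at h2
        have h3 : σ (h lam) w1 - μ ^ (-4 : ℤ) • w1 = μ ^ (-4 : ℤ) • w2 - σ (h lam) w2 := by
          rw [sub_eq_sub_iff_add_eq_add, h2, add_comm]
        have h4 : σ (h lam) w1 - μ ^ (-4 : ℤ) • w1 ∈ W ⊓ orth (Pj j) W := by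
          refine ⟨W.sub_mem (hW _ _ hw1) (W.smul_mem _ hw1), ?_⟩
          rw [h3]
          exact Submodule.sub_mem _ (Submodule.smul_mem _ _ hw2) (S.orth_inv hW _ _ hw2)
        rw [hcomp.inf_eq_bot, Submodule.mem_bot] at h4
        exact sub_eq_zero.1 h4
      have hw10 : w1 = 0 := (Submodule.mem_bot k).1 (F2 (M := ⊥) (by
        rw [hz26 2 le_rfl (by norm_num)]
        exact Submodule.zero_mem _) hw1 hTw)
      rw [hw10, zero_add] at he
      have h5 := trick (S.orth_inv hW) (by rw [← he]; exact hw2)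
      have h6 : D 8 ∈ W ⊓ orth (Pj j) W := ⟨mD 8, h5⟩
      rw [hcomp.inf_eq_bot, Submodule.mem_bot] at h6
      exact hD8 h6
    · have := count_one S.dul hVW hiso
      omega
  obtain ⟨hX', hVX'⟩ := hy.isV (by omega) hb hy0
  have hcX' := cf_irr (Sy.{u, v, w} ι p) hVX'
  -- the factors of `W`
  have hcW : cf (Sy.{u, v, w} ι p) (subRep σ W hW) = {4 * p ^ i, B} := by
    let X'' : Submodule k W := X'.comap W.subtype
    have hX'' : ∀ g, ∀ x ∈ X'', subRep σ W hW g x ∈ X'' := fun g x hx => hX' g _ hx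
    have h1 : cf (Sy.{u, v, w} ι p) (subRep (subRep σ W hW) X'' hX'') = cf (Sy.{u, v, w} ι p) (subRep σ X' hX') :=
      cf_iso _ ⟨Submodule.comapSubtypeEquivOfLe hX'W, fun g x => rfl⟩
    let z : ℕ → W := fun s => ⟨D s, mD s⟩
    have hz : WT ι p (subRep σ W hW) 8 i z := WT.comap (ρ' := σ) W.subtype (fun _ _ => rfl) W.injective_subtype hD
    have hz' : WT ι p (quotRep (subRep σ W hW) X'' hX'') 8 i (fun s => X''.mkQ (z s)) := hz.map X''.mkQ (fun g x => rfl)
    have h2 := cf_top8 hp C.card ha hi hz' (fun s h2 h6 => by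
      rw [Submodule.mkQ_apply, Submodule.Quotient.mk_eq_zero]
      exact mem_Yt D h2 h6) (by
      intro q _
      obtain ⟨⟨m, hm⟩, rfl⟩ := X''.mkQ_surjective q
      have h1 : m ∈ (Submodule.span k (Set.range z)).map W.subtype := by
        rw [Submodule.map_span]
        refine Submodule.span_mono ?_ hm
        rintro _ ⟨s, rfl⟩
        exact ⟨z s, ⟨s, rfl⟩, rfl⟩
      obtain ⟨m', hm', he⟩ := h1
      have h3 : (⟨m, hm⟩ : W) = m' := Subtype.ext he.symm
      rw [h3]
      have h4 := Submodule.mem_map_of_mem (f := X''.mkQ) hm'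
      rw [Submodule.map_span] at h4
      refine Submodule.span_mono ?_ h4
      rintro _ ⟨_, ⟨s, rfl⟩, rfl⟩
      exact ⟨s, rfl⟩) (fun h => hD8X ((Submodule.Quotient.mk_eq_zero X'').1 h))
    rw [cf_add _ (subRep σ W hW) X'' hX'', h1, hcX', h2]
    rfl
  -- the span of the products
  have hx0 : x ≠ 0 := by
    rintro rfl
    apply hx4
    show β 0 0 = 0
    rw [map_zero]
  obtain ⟨hX, hVX⟩ := hx.isV (by omega) hb hx0
  obtain ⟨I, hI, hprod, hcI⟩ := exists_I C E hi hVX
  have hpI : ∀ s t, β (x s) (x t) ∈ I := fun s t =>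
    hprod _ (Submodule.subset_span ⟨s, rfl⟩) _ (Submodule.subset_span ⟨t, rfl⟩)
  have hWI : W ≤ I := by
    rw [hWd, Submodule.span_le]
    rintro _ ⟨s, rfl⟩
    match s with
    | 0 => exact hpI 0 0
    | 1 => exact I.smul_mem _ (hpI _ _)
    | 2 => exact I.add_mem (I.smul_mem _ (hpI _ _)) (I.smul_mem _ (hpI _ _))
    | 3 => exact I.add_mem (I.smul_mem _ (hpI _ _)) (I.smul_mem _ (hpI _ _))
    | 4 => exact I.add_mem (I.add_mem (I.smul_mem _ (hpI _ _)) (I.smul_mem _ (hpI _ _))) (I.smul_mem _ (hpI _ _))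
    | 5 => exact I.add_mem (I.smul_mem _ (hpI _ _)) (I.smul_mem _ (hpI _ _))
    | 6 => exact I.add_mem (I.smul_mem _ (hpI _ _)) (I.smul_mem _ (hpI _ _))
    | 7 => exact I.smul_mem _ (hpI _ _)
    | 8 => exact hpI 4 4
    | s + 9 => exact I.zero_mem
  have hsq : sqs p a i 4 = {B, 4 * p ^ i, 4 * p ^ i, 0} := by
    rw [hB, hp]
    exact sqs7 ha
  rw [hsq] at hcI
  have hF0 : 4 * p ^ i ≠ 0 := by
    have := Nat.pow_pos (n := i) hpr.pos
    omega
  have hB0 : B ≠ 0 := by
    have := Nat.pow_pos (n := i) hpr.pos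
    omega
  have h0I : 0 ∉ cf (Sy.{u, v, w} ι p) (subRep σ I hI) := fun h => h0 (Multiset.mem_of_le (cf_sub_le _ _ _ _) h)
  have hcount := Multiset.le_iff_count.1 hcI
  have hIF : (cf (Sy.{u, v, w} ι p) (subRep σ I hI)).count (4 * p ^ i) ≤ 2 := by
    refine (hcount _).trans ?_
    simp [Multiset.count_cons, Multiset.count_singleton, hBF, hBF.symm, hF0, hF0.symm]
  have hIB : (cf (Sy.{u, v, w} ι p) (subRep σ I hI)).count B ≤ 1 := by
    refine (hcount _).trans ?_
    simp [Multiset.count_cons, Multiset.count_singleton, hBF, hBF.symm, hB0, hB0.symm]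
  have hIall : ∀ c ∈ cf (Sy.{u, v, w} ι p) (subRep σ I hI), c = 4 * p ^ i ∨ c = B := by
    intro c hc
    have h1 := Multiset.mem_of_le hcI hc
    simp only [Multiset.insert_eq_cons, Multiset.mem_cons, Multiset.mem_singleton] at h1
    rcases h1 with h1 | h1 | h1 | h1
    · exact Or.inr h1
    · exact Or.inl h1
    · exact Or.inl h1
    · rw [h1] at hc
      exact absurd hc h0I
  have hIW : ¬ I ≤ W := fun hle => hD8X (trick hX' (F2 (mem_Yt D le_rfl (by norm_num)) (hle (hpI 1 1)) hT11))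
  obtain ⟨n1, hn1, hn1'⟩ := cf_pair (ι := ι) (p := p) hW hI hWI
  have hWF : (cf (Sy.{u, v, w} ι p) (subRep σ W hW)).count (4 * p ^ i) = 1 := by
    rw [hcW]
    simp [Multiset.count_cons, Multiset.count_singleton, hBF, hBF.symm]
  have hWB : (cf (Sy.{u, v, w} ι p) (subRep σ W hW)).count B = 1 := by
    rw [hcW]
    simp [Multiset.count_cons, Multiset.count_singleton, hBF, hBF.symm]
  have hn1F : n1 = {4 * p ^ i} := by
    have h1 : n1 ≠ 0 := fun h => hIW (hn1' h)
    have h2 : ∀ c ∈ n1, c = 4 * p ^ i := by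
      intro c hc
      rcases hIall c (by rw [hn1]; exact Multiset.mem_add.2 (Or.inr hc)) with h3 | h3
      · exact h3
      · exfalso
        have h4 := Multiset.one_le_count_iff_mem.2 hc
        rw [h3] at h4
        rw [hn1, Multiset.count_add] at hIB
        omega
    have h3 := Multiset.eq_replicate_of_mem h2
    have h4 : Multiset.card n1 = 1 := by
      have h5 : n1.count (4 * p ^ i) = Multiset.card n1 := by
        conv_lhs => rw [h3]
        rw [Multiset.count_replicate_self]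
      rw [hn1, Multiset.count_add] at hIF
      have h6 : 0 < Multiset.card n1 := Multiset.card_pos.2 h1
      omega
    rw [h3, h4]
    rfl
  have hcI2 : cf (Sy.{u, v, w} ι p) (subRep σ I hI) = {4 * p ^ i, 4 * p ^ i, B} := by
    rw [hn1, hcW, hn1F]
    simp only [Multiset.insert_eq_cons, Multiset.cons_add, Multiset.singleton_add]
    congr 1
    exact Multiset.cons_swap B (4 * p ^ i) 0
  refine ⟨I, hI, ?_, hcI2⟩
  have hμ1 : ∀ m : ℤ, -16 ≤ m → m ≤ 16 → μ ^ m = 1 → m = 0 := by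
    intro m h1 h2 h3
    obtain ⟨c, hc⟩ := (hlam.zpow_eq_one_iff_dvd _).1 h3
    have h5 : c = 0 := by
      by_contra h5
      have h6 : (1 : ℤ) ≤ |c| := Int.one_le_abs h5
      have h7 : |m| = ((Fintype.card K - 1 : ℕ) : ℤ) * |c| := by rw [hc, abs_mul, Nat.abs_cast]
      have h8 : ((Fintype.card K - 1 : ℕ) : ℤ) ≤ |m| := by
        rw [h7]
        nlinarith
      have h9 : |m| ≤ 16 := by
        rw [abs_le]
        constructor <;> omega
      omega
    rw [hc, h5, mul_zero]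
  rcases IsV.inf_or_le ι p hVX' (S.orth_inv hI) with hnd | hle
  · -- `X'` is not orthogonal to `I`
    set R := I ⊓ orth (Pj j) I with hRd
    have hR : ∀ g, ∀ x ∈ R, σ g x ∈ R := inf_st hI (S.orth_inv hI)
    have hRiso : ∀ m ∈ R, ∀ n ∈ R, Pj j m n = 0 := fun m hm n hn => hn.2 m hm.1
    have hRW : R ⊓ W = ⊥ := by
      by_contra hne
      have hU : ∀ g, ∀ x ∈ R ⊓ W, σ g x ∈ R ⊓ W := inf_st hR hW
      have hd : (R ⊓ W) ⊓ X' = ⊥ := by
        rw [eq_bot_iff, ← hnd]
        exact fun z hz => ⟨hz.2, hz.1.1.2⟩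
      obtain ⟨n, h1, -⟩ := cf_disj (ι := ι) (p := p) hU hX' hW hd inf_le_right hX'W
      rw [hcW, hcX'] at h1
      have h2 : ({B} : Multiset ℕ) = cf (Sy.{u, v, w} ι p) (subRep σ (R ⊓ W) hU) + n := by
        have h3 : ({4 * p ^ i} : Multiset ℕ) + {B} = {4 * p ^ i} +
            (cf (Sy.{u, v, w} ι p) (subRep σ (R ⊓ W) hU) + n) := by
          rw [← add_assoc, add_comm ({4 * p ^ i} : Multiset ℕ) (cf _ _), ← h1]
          rfl
        exact add_left_cancel h3
      have h3 : cf (Sy.{u, v, w} ι p) (subRep σ (R ⊓ W) hU) = {B} :=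
        (Multiset.le_singleton.1 (by rw [h2]; exact Multiset.le_add_right _ _)).resolve_left (cf_ne_zero hU hne)
      have hVU : IsV ι p (subRep σ (R ⊓ W) hU) B := irr_of_cf _ h3
      have h4 := hb1 ⟨_, hU, hVU⟩
      have h5 := count_one S.dul hVU (fun m hm n hn => hRiso m hm.1 n hn.1)
      omega
    show R = ⊥
    by_contra hR0
    obtain ⟨n, h1, h1'⟩ := cf_disj (ι := ι) (p := p) hR hW hI hRW inf_le_left hWI
    rw [hn1, hn1F] at h1
    have h2 : ({4 * p ^ i} : Multiset ℕ) = cf (Sy.{u, v, w} ι p) (subRep σ R hR) + n := by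
      have h3 : cf (Sy.{u, v, w} ι p) (subRep σ W hW) + {4 * p ^ i} = cf (Sy.{u, v, w} ι p) (subRep σ W hW) +
          (cf (Sy.{u, v, w} ι p) (subRep σ R hR) + n) := by
        rw [h1]
        abel
      exact add_left_cancel h3
    have h3 : cf (Sy.{u, v, w} ι p) (subRep σ R hR) = {4 * p ^ i} :=
      (Multiset.le_singleton.1 (by rw [h2]; exact Multiset.le_add_right _ _)).resolve_left (cf_ne_zero hR hR0)
    have hn0 : n = 0 := by
      rw [h3] at h2
      exact add_eq_left.1 h2.symm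
    have hIRW := h1' hn0
    have hVR : IsV ι p (subRep σ R hR) (4 * p ^ i) := irr_of_cf _ h3
    obtain ⟨r, hr, -, hrR, hRr, -⟩ := ts_of_isV E (by omega : 4 < p) hVR
    have h4 : β (x 1) (x 1) ∈ X' ⊔ R := by
      have h5 : β (x 1) (x 1) ∈ Submodule.span k (Set.range r ∪ Set.range D) := by
        rw [Submodule.span_union, ← hRr]
        exact hIRW (hpI 1 1)
      refine wt_mem (T := σ (h lam)) hn4 (fun g hg => ?_) h5 hT11
      rcases hg with ⟨s, rfl⟩ | ⟨s, rfl⟩
      · obtain ⟨m, hm1, hm2, hm⟩ := tw hr s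
        by_cases hm4 : m = -4
        · left
          rw [hm4] at hm
          exact ⟨hm, Submodule.mem_sup_right (hrR s)⟩
        · right
          exact ⟨_, mem_Sx (by omega) (by omega) hm4, hm⟩
      · by_cases hs8 : s ≤ 8
        · by_cases hs2 : s = 2
          · left
            subst hs2
            have := hTD 2 (by norm_num)
            rw [show (2 * ((2 : ℕ) : ℤ) - 8) = -4 by norm_num] at this
            exact ⟨this, Submodule.mem_sup_left (mem_Yt D le_rfl (by norm_num))⟩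
          · right
            exact ⟨_, mem_Sx (by omega) (by omega) (by omega), hTD s hs8⟩
        · left
          rw [hD.zero s (by omega)]
          exact ⟨by rw [map_zero, smul_zero], Submodule.zero_mem _⟩
    have h5 := trick (sup_st hX' hR) h4
    refine F1 (Set.range y ∪ Set.range r) ?_ (by rw [Submodule.span_union, ← hRr]; exact h5)
    rintro g (⟨s, rfl⟩ | ⟨s, rfl⟩)
    · exact tw hy s
    · exact tw hr s
  · -- `X'` is orthogonal to `I`
    exfalso
    have h11 : β (x 1) (x 1) ∈ orth (Pj j) W := by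
      intro z hz
      rw [hWd] at hz
      induction hz using Submodule.span_induction with
      | mem z hz =>
        obtain ⟨s, rfl⟩ := hz
        by_cases hs8 : s ≤ 8
        · by_cases hs6 : s = 6
          · subst hs6
            rw [S.symm]
            exact hle (mem_Yt D (by norm_num) le_rfl) _ (hpI 1 1)
          · have h1 := hinv (h lam) (D s) (β (x 1) (x 1))
            rw [hTD s hs8, hT11, map_smul, map_smul, LinearMap.smul_apply, smul_eq_mul, smul_eq_mul, ← mul_assoc,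
              ← zpow_add₀ hμ0] at h1
            have h2 : (μ ^ (-4 + (2 * (s : ℤ) - 8)) - 1) * Pj j (D s) (β (x 1) (x 1)) = 0 := by linear_combination h1
            refine (mul_eq_zero.1 h2).resolve_left (sub_ne_zero.2 fun h3 => ?_)
            have := hμ1 _ (by omega) (by omega) h3
            omega
        · rw [hD.zero s (by omega), map_zero]
          rfl
      | zero => rw [map_zero]; rfl
      | add a b _ _ ha hb => rw [map_add, LinearMap.add_apply, ha, hb, add_zero]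
      | smul c a _ ha => rw [map_smul, LinearMap.smul_apply, ha, smul_zero]
    have h8 := trick (S.orth_inv hW) h11
    have hgen := hD.gen (by omega) (S.orth_inv hW) h8
    have hWW : W ≤ orth (Pj j) W := by
      rw [hWd, Submodule.span_le]
      rintro _ ⟨s, rfl⟩
      exact hgen s
    have hdual : ∀ {Z : Submodule k V} (hZ : ∀ g, ∀ x ∈ Z, σ g x ∈ Z) (c : ℕ),
        (cf (Sy.{u, v, w} ι p) σ).count c = (cf (Sy.{u, v, w} ι p) (subRep σ (orth (Pj j) Z) (S.orth_inv hZ))).count c +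
          (cf (Sy.{u, v, w} ι p) (subRep σ Z hZ)).count c := by
      intro Z hZ c
      obtain ⟨B', D', -⟩ := S.dul.sub hZ
      have h2 := cf_dual ι p D'
      have h3 := cf_add (Sy.{u, v, w} ι p) σ (orth (Pj j) Z) (S.orth_inv hZ)
      rw [h3, Multiset.count_add, h2]
    have hmono : ∀ {Z Z' : Submodule k V} (hZ : ∀ g, ∀ x ∈ Z, σ g x ∈ Z) (hZ' : ∀ g, ∀ x ∈ Z', σ g x ∈ Z') (c : ℕ),
        Z ≤ Z' → (cf (Sy.{u, v, w} ι p) (subRep σ Z hZ)).count c ≤ (cf (Sy.{u, v, w} ι p) (subRep σ Z' hZ')).count c := by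
      intro Z Z' hZ hZ' c hle
      exact Multiset.le_iff_count.1 (cf_le_of_inj (Submodule.inclusion hle) (fun _ _ => rfl)
        (Submodule.inclusion_injective hle)) c
    have e1 := hdual hW B
    have e2 := hmono hW (S.orth_inv hW) B hWW
    have e3 := hdual hX' (4 * p ^ i)
    have e4 := hmono hI (S.orth_inv hX') (4 * p ^ i) (fun z hz m hm => by
      rw [S.symm]
      exact hle hm z hz)
    rw [hcX', Multiset.count_singleton_self] at e3
    have e6 : (cf (Sy.{u, v, w} ι p) (subRep σ I hI)).count (4 * p ^ i) = 2 := by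
      rw [hcI2]
      simp [Multiset.count_cons, Multiset.count_singleton, hBF, hBF.symm]
    omega

end Cfsg.Agent.R2.F4L
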