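import Cfsg.Agent.R2.F4L.Bot
import Cfsg.Agent.R2.F4L.Pair

/-!
# The submodules `V_{2 p ^ i}` (helper2, S5931)

* `sq2` : the tuple of type `(4, i)` of the squares of a tuple of type `(2, i)`;
* `Cx.c_ne` : `c ≠ 0` where `cr (x 0) (x 2) - 2 sh (x 1) = c u0`;
* `Cx.pair2` : tuples of types `(2, i)`, `(2, l)`, `i ≠ l`; `Cx.uniq2` : tuples of type `(2, i)` are proportional.
-/

set_option autoImplicit false
set_option linter.unusedSectionVars false
set_option linter.unusedVariables false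

namespace Cfsg.Agent.R2.F4L

open Cfsg.Lie
open Cfsg.Agent.ChevalleyStructure.E6Min.Tables Cfsg.Agent.ChevalleyStructure.E6Min.Basic
open Cfsg.Agent.H952.F4 (sh cr tf tr1 u0)
open Cfsg.Agent.H952.F4.Jord
open Cfsg.Agent.H943.SL2Rel Cfsg.Agent.H943.SL2Mod Cfsg.Agent.R2.H28.SL2 Cfsg.Agent.H943.RepAdd
open Cfsg.Agent.R2.GEO (tfB tfB_apply)

universe u v w

variable {k : Type u} [Field k] [DecidableEq k] {K : Type w} [Field K] [Fintype K] [DecidableEq K] {ι : K →+* k}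
variable {p : ℕ} [Fact p.Prime] [CharP k p] [CharP K p] {a : ℕ}
variable {ρ : Representation k (Matrix.SpecialLinearGroup (Fin 2) K) (I27 → k)} {i : ℕ}

/-- the tuple of the squares -/
noncomputable def sq2 (x : ℕ → I27 → k) : ℕ → I27 → k := fun s => match s with
  | 0 => sh (x 0)
  | 1 => (2 : k)⁻¹ • cr (x 0) (x 1)
  | 2 => (6 : k)⁻¹ • ((4 : k) • sh (x 1) + cr (x 0) (x 2))
  | 3 => (2 : k)⁻¹ • cr (x 1) (x 2)
  | 4 => sh (x 2)
  | _ => 0

theorem six_ne (p : ℕ) [Fact p.Prime] [CharP k p] (hp5 : 5 ≤ p) : (6 : k) ≠ 0 := by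
  rw [show (6 : k) = 2 * 3 by norm_num]
  exact mul_ne_zero (two_ne p (by omega)) (three_ne p (by omega))

theorem ts_sq2 (H : Act ρ) (hp5 : 5 ≤ p) {x : ℕ → I27 → k} (hx : TS ι p ρ 2 i x) : TS ι p ρ 4 i (sq2 x) := by
  have h2 : (2 : k) ≠ 0 := two_ne p (by omega)
  have h6 : (6 : k) ≠ 0 := six_ne p hp5
  refine ts_of_bot (by omega) (fun s hs => ?_) (fun t => ?_) (fun b => ?_) (fun s hs => ?_)
  · match s with
    | 0 | 1 | 2 | 3 | 4 => omega
    | s + 5 => rfl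
  · show ρ (u t) (sh (x 0)) = _
    rw [H.sh, ts2_u0 hx]
    simp only [Finset.sum_range_succ, Finset.sum_range_zero, zero_add]
    show _ = (((4 : ℕ).choose 0 : k) * (ι t ^ p ^ i) ^ 0) • sh (x 0) + (((4 : ℕ).choose 1 : k) * (ι t ^ p ^ i) ^ 1) •
      (2 : k)⁻¹ • cr (x 0) (x 1) + (((4 : ℕ).choose 2 : k) * (ι t ^ p ^ i) ^ 2) •
      (6 : k)⁻¹ • ((4 : k) • sh (x 1) + cr (x 0) (x 2)) + (((4 : ℕ).choose 3 : k) * (ι t ^ p ^ i) ^ 3) •
      (2 : k)⁻¹ • cr (x 1) (x 2) + (((4 : ℕ).choose 4 : k) * (ι t ^ p ^ i) ^ 4) • sh (x 2)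
    rw [show (4 : ℕ).choose 0 = 1 by decide, show (4 : ℕ).choose 1 = 4 by decide, show (4 : ℕ).choose 2 = 6 by decide,
      show (4 : ℕ).choose 3 = 4 by decide, show (4 : ℕ).choose 4 = 1 by decide]
    push_cast
    rw [sh_add3]
    simp only [sh_smul, cr_smul_left, cr_smul_right, smul_smul, smul_add]
    match_scalars <;> field_simp <;> ring
  · show ρ (h b) (sh (x 0)) = ((ι b ^ p ^ i)⁻¹) ^ 4 • sh (x 0)
    rw [H.sh, ts2_h0 hx, sh_smul]
    congr 1
    ring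
  · have e01 := ts2_w0 hx
    have e11 := ts2_w1 hx
    have e21 := ts2_w2 hx
    have hs' : s = 0 ∨ s = 1 ∨ s = 2 ∨ s = 3 ∨ s = 4 := by omega
    rcases hs' with rfl | rfl | rfl | rfl | rfl
    · show ρ w (sh (x 0)) = (-1 : k) ^ 0 • sh (x 2)
      rw [H.sh, e01, pow_zero, one_smul]
    · show ρ w ((2 : k)⁻¹ • cr (x 0) (x 1)) = (-1 : k) ^ 1 • (2 : k)⁻¹ • cr (x 1) (x 2)
      rw [map_smul, H.cr, e01, e11, cr_neg_right, cr_comm]
      module
    · show ρ w ((6 : k)⁻¹ • ((4 : k) • sh (x 1) + cr (x 0) (x 2))) = (-1 : k) ^ 2 • (6 : k)⁻¹ • ((4 : k) • sh (x 1) + cr (x 0) (x 2))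
      rw [map_smul, map_add, map_smul, H.cr, H.sh, e01, e11, e21, cr_comm, show -x 1 = (-1 : k) • x 1 by rw [neg_one_smul], sh_smul]
      module
    · show ρ w ((2 : k)⁻¹ • cr (x 1) (x 2)) = (-1 : k) ^ 3 • (2 : k)⁻¹ • cr (x 0) (x 1)
      rw [map_smul, H.cr, e21, e11, cr_neg_left, cr_comm]
      module
    · show ρ w (sh (x 2)) = (-1 : k) ^ 4 • sh (x 0)
      rw [H.sh, e21]
      module

/-- the idempotent -/
theorem two_y (H : Act ρ) (hp5 : 5 ≤ p) (hQ : 7 ≤ Fintype.card K)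
    (hfix : ∀ y : I27 → k, (∀ g, ρ g y = y) → ∃ c : k, y = c • u0 k) {x : ℕ → I27 → k} (hx : TS ι p ρ 2 i x) {c : k}
    (hc : cr (x 0) (x 2) - (2 : k) • sh (x 1) = c • u0 k) (hc0 : c ≠ 0) :
    ∃ y ∈ Submodule.span k (Set.range (sq2 x)), tr1 y = 0 ∧ R2.H1.F4.st y y = (4 / 3 * c) • y ∧ tf y y = 8 / 3 * c ^ 2 := by
  have h2 : (2 : k) ≠ 0 := two_ne p (by omega)
  have h3 : (3 : k) ≠ 0 := three_ne p (by omega)
  have h6 : (6 : k) ≠ 0 := six_ne p hp5
  obtain ⟨c0', M⟩ := three_MH H (by omega) hQ hfix hx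
  have ht : (2 : k) ^ 2 ≠ 1 := by
    intro h
    apply h3
    linear_combination h
  -- the constant of `MH`
  have hw := M.w
  have e0 : (1 : k) • sh (x 0 + x 2) + (-1 : k) • sh (x 0 - x 2) + (-4 : k) • sh (x 1) = (2 * c) • u0 k := by
    rw [mul_smul, ← hc, sub_eq_add_neg (x 0) (x 2), sh_add, sh_add, show -x 2 = (-1 : k) • x 2 by rw [neg_one_smul],
      sh_smul, cr_smul_right]
    module
  have hcc : c0' = 2 * c := by
    have h4 : (c0' - 2 * c) • u0 k = 0 := by rw [sub_smul, ← hw, ← e0, sub_self]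
    exact sub_eq_zero.1 ((smul_eq_zero.1 h4).resolve_right u0_ne)
  subst hcc
  obtain ⟨htr, -⟩ := M.tr h2 h2 ht (mul_ne_zero h2 hc0)
  rw [one_mul] at htr
  have R := M.rel h2 h2 ht
  set q := sh (x 0 + x 2) with hq
  have hqv : q = sq2 x 0 + (2 : k) • sq2 x 2 + sq2 x 4 + (2 / 3 * c) • u0 k := by
    show q = sh (x 0) + (2 : k) • (6 : k)⁻¹ • ((4 : k) • sh (x 1) + cr (x 0) (x 2)) + sh (x 2) + (2 / 3 * c) • u0 k
    rw [mul_smul, ← hc, hq, sh_add]
    match_scalars <;> field_simp <;> ring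
  have hTq : tf q q = 4 * c ^ 2 := by
    have h4 := tr1_sh q
    rw [R.s1, tr1_zero, htr] at h4
    linear_combination h4
  have hcrq : cr q q = 0 := by rw [cr_self, R.s1, smul_zero]
  refine ⟨q + (-(2 / 3 * c)) • u0 k, ?_, ?_, ?_, ?_⟩
  · have : q + (-(2 / 3 * c)) • u0 k = sq2 x 0 + (2 : k) • sq2 x 2 + sq2 x 4 := by
      rw [hqv]
      module
    rw [this]
    exact Submodule.add_mem _ (Submodule.add_mem _ (Submodule.subset_span ⟨0, rfl⟩)
      (Submodule.smul_mem _ _ (Submodule.subset_span ⟨2, rfl⟩))) (Submodule.subset_span ⟨4, rfl⟩)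
  · rw [tr1_add, tr1_smul, tr1_u0, htr]
    field_simp
    ring
  · have hT : tf (q + (-(2 / 3 * c)) • u0 k) (q + (-(2 / 3 * c)) • u0 k) = 8 / 3 * c ^ 2 := by
      simp only [tf_add_left, tf_add_right, tf_smul_left, tf_smul_right]
      rw [tf_u0, tf_comm q (u0 k), tf_u0, tf_u0, tr1_u0, hTq, htr]
      field_simp
      ring
    unfold R2.H1.F4.st
    rw [hT]
    simp only [cr_add_left, cr_add_right, cr_smul_left, cr_smul_right]
    rw [hcrq, cr_comm q (u0 k), cr_u0, cr_self, sh_u0, htr]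
    match_scalars <;> field_simp <;> ring
  · simp only [tf_add_left, tf_add_right, tf_smul_left, tf_smul_right]
    rw [tf_u0, tf_comm q (u0 k), tf_u0, tf_u0, tr1_u0, hTq, htr]
    field_simp
    ring

section Alg

variable {V : Type v} [AddCommGroup V] [Module k V] {σ : Representation k (Matrix.SpecialLinearGroup (Fin 2) K) V}
variable {j : V →ₗ[k] (I27 → k)}
variable [IsAlgClosed k] [FiniteDimensional k V]

/-- the constant -/
theorem Cx.exists_c (C : Cx ι p a ρ) {x : ℕ → I27 → k} (hx : TS ι p ρ 2 i x) :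
    ∃ c : k, cr (x 0) (x 2) - (2 : k) • sh (x 1) = c • u0 k := C.fix _ (three_w0 C.act hx)

/-- **`c ≠ 0`** -/
theorem Cx.c_ne (C : Cx ι p a ρ) (hi : i < a) {x : ℕ → I27 → k} (hx : TS ι p ρ 2 i x) (hx0 : x ≠ 0) {c : k}
    (hc : cr (x 0) (x 2) - (2 : k) • sh (x 1) = c • u0 k) : c ≠ 0 := by
  rintro rfl
  have hp5 := C.hp5
  have h2 := C.two
  have h3 := C.three
  have h6 : (6 : k) ≠ 0 := six_ne p hp5
  obtain ⟨c0', M⟩ := three_MH C.act (by omega) C.seven C.fix hx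
  have ht : (2 : k) ^ 2 ≠ 1 := by
    intro h
    apply h3
    linear_combination h
  have hw := M.w
  have e0 : (1 : k) • sh (x 0 + x 2) + (-1 : k) • sh (x 0 - x 2) + (-4 : k) • sh (x 1) = (2 : k) • (0 : k) • u0 k := by
    rw [← hc, sub_eq_add_neg (x 0) (x 2), sh_add, sh_add, show -x 2 = (-1 : k) • x 2 by rw [neg_one_smul],
      sh_smul, cr_smul_right]
    module
  rw [zero_smul, smul_zero] at e0
  rw [e0] at hw
  have hcc : c0' = 0 := (smul_eq_zero.1 hw.symm).resolve_right u0_ne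
  subst hcc
  have hwh := M.white h2 h2 ht
  -- the tuple of the squares is white
  have hsq := ts_sq2 C.act hp5 hx
  have hz : sq2 x = 0 := by
    refine C.ts_white (by omega) hi hsq fun b => ?_
    have h4 : cr (x 0) (x 2) = (2 : k) • sh (x 1) := by
      rw [zero_smul] at hc
      exact sub_eq_zero.1 hc
    have e : ∑ s ∈ Finset.range (4 + 1), b s • sq2 x s =
        ((b 0 + b 4) / 4) • sh (x 0 + x 2) + ((b 0 + b 4) / 4) • sh (x 0 - x 2) + (b 2) • sh (x 1) +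
        ((b 1 - b 3) / 2) • ((2 : k)⁻¹ • cr (x 0 - x 2) (x 1)) + ((b 1 + b 3) / 2) • ((2 : k)⁻¹ • cr (x 0 + x 2) (x 1)) +
        ((b 0 - b 4) / 2) • ((2 : k)⁻¹ • cr (x 0 + x 2) (x 0 - x 2)) := by
      simp only [Finset.sum_range_succ, Finset.sum_range_zero, zero_add]
      show b 0 • sh (x 0) + b 1 • (2 : k)⁻¹ • cr (x 0) (x 1) + b 2 • (6 : k)⁻¹ • ((4 : k) • sh (x 1) + cr (x 0) (x 2)) +
        b 3 • (2 : k)⁻¹ • cr (x 1) (x 2) + b 4 • sh (x 2) = _
      rw [sub_eq_add_neg (x 0) (x 2), show -x 2 = (-1 : k) • x 2 by rw [neg_one_smul], sh_add, sh_add, sh_smul]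
      simp only [cr_add_left, cr_add_right, cr_smul_left, cr_smul_right, cr_self]
      rw [h4, cr_comm (x 2) (x 1), cr_comm (x 2) (x 0), h4, cr_comm (x 0) (x 1)]
      have h4' : (4 : k) ≠ 0 := by
        rw [show (4 : k) = 2 * 2 by norm_num]
        exact mul_ne_zero h2 h2
      match_scalars <;> field_simp <;> ring
    rw [e]
    exact hwh _ _ _ _ _ _
  have z0 : sh (x 0) = 0 := congrFun hz 0
  have z1 : cr (x 0) (x 1) = 0 := (smul_eq_zero.1 (congrFun hz 1 : (2 : k)⁻¹ • cr (x 0) (x 1) = 0)).resolve_left (inv_ne_zero h2)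
  have z2 : (4 : k) • sh (x 1) + cr (x 0) (x 2) = 0 :=
    (smul_eq_zero.1 (congrFun hz 2 : (6 : k)⁻¹ • ((4 : k) • sh (x 1) + cr (x 0) (x 2)) = 0)).resolve_left (inv_ne_zero h6)
  have z3 : cr (x 1) (x 2) = 0 := (smul_eq_zero.1 (congrFun hz 3 : (2 : k)⁻¹ • cr (x 1) (x 2) = 0)).resolve_left (inv_ne_zero h2)
  have z4 : sh (x 2) = 0 := congrFun hz 4
  have h4 : cr (x 0) (x 2) = (2 : k) • sh (x 1) := by
    rw [zero_smul] at hc
    exact sub_eq_zero.1 hc
  have z5 : sh (x 1) = 0 := by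
    rw [h4] at z2
    refine (smul_eq_zero.1 (?_ : (6 : k) • sh (x 1) = 0)).resolve_left h6
    rw [← z2]
    module
  refine hx0 (C.ts_white (by omega) hi hx fun b => ?_)
  simp only [Finset.sum_range_succ, Finset.sum_range_zero, zero_add]
  rw [sh_add3]
  simp only [sh_smul, cr_smul_left, cr_smul_right, z0, z1, z3, z4, z5, h4]
  simp

/-- orthogonality in `J` -/
theorem Cx.orth (C : Cx ι p a ρ) (E : Em ρ σ j) {n m i l : ℕ} (hn : n < p) (hm : m < p) (hn1 : 1 ≤ n) (hm1 : 1 ≤ m)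
    (hi : i < a) (hl : l < a) (hne : n * p ^ i ≠ m * p ^ l) {x y : ℕ → I27 → k} (hx : TS ι p ρ n i x) (hy : TS ι p ρ m l y) :
    ∀ v ∈ Submodule.span k (Set.range x), ∀ w ∈ Submodule.span k (Set.range y), tf v w = 0 := by
  obtain ⟨x', hx', ex⟩ := E.lift C.act hn hn1 (C.lt_card hn hi) hx
  obtain ⟨y', hy', ey⟩ := E.lift C.act hm hm1 (C.lt_card hm hl) hy
  have key : ∀ s t, tf (x s) (y t) = 0 := by
    intro s t
    by_cases hx0 : x' = 0
    · rw [← ex s, hx0]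
      show tf (j 0) (y t) = 0
      rw [map_zero, tf_zero_left]
    by_cases hy0 : y' = 0
    · rw [← ey t, hy0]
      show tf (x s) (j 0) = 0
      rw [map_zero, tf_comm, tf_zero_left]
    obtain ⟨hX, hVX⟩ := hx'.isV hn (C.lt_card hn hi) hx0
    obtain ⟨hY, hVY⟩ := hy'.isV hm (C.lt_card hm hl) hy0
    rw [← ex, ← ey, ← Pj_apply]
    exact orth_ne (E.dul C.act C.three) hne hVX hVY _ (Submodule.subset_span ⟨s, rfl⟩) _ (Submodule.subset_span ⟨t, rfl⟩)
  intro v hv w hw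
  induction hv using Submodule.span_induction with
  | mem v hv =>
    obtain ⟨s, rfl⟩ := hv
    induction hw using Submodule.span_induction with
    | mem w hw =>
      obtain ⟨t, rfl⟩ := hw
      exact key s t
    | zero => rw [tf_comm, tf_zero_left]
    | add a b _ _ ha hb => rw [tf_add_right, ha, hb, add_zero]
    | smul c a _ ha => rw [tf_smul_right, ha, mul_zero]
  | zero => rw [tf_zero_left]
  | add a b _ _ ha hb => rw [tf_add_left, ha, hb, add_zero]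
  | smul c a _ ha => rw [tf_smul_left, ha, mul_zero]

/-- products in `J` -/
theorem Cx.prod0 (C : Cx ι p a ρ) (E : Em ρ σ j) {n m i l : ℕ} (hn : n < p) (hm : m < p) (hn1 : 1 ≤ n) (hm1 : 1 ≤ m)
    (hi : i < a) (hl : l < a) (hil : i ≠ l) (hno : ¬ InSoc ι p σ (n * p ^ i + m * p ^ l)) {x y : ℕ → I27 → k}
    (hx : TS ι p ρ n i x) (hy : TS ι p ρ m l y) :
    ∀ v ∈ Submodule.span k (Set.range x), ∀ w ∈ Submodule.span k (Set.range y), R2.H1.F4.st v w = 0 := by
  obtain ⟨x', hx', ex⟩ := E.lift C.act hn hn1 (C.lt_card hn hi) hx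
  obtain ⟨y', hy', ey⟩ := E.lift C.act hm hm1 (C.lt_card hm hl) hy
  have st0 : ∀ y : I27 → k, R2.H1.F4.st 0 y = 0 := fun y => by
    have := R2.H1.F4.st_smul_left (0 : k) 0 y
    rwa [zero_smul, zero_smul] at this
  have key : ∀ s t, R2.H1.F4.st (x s) (y t) = 0 := by
    intro s t
    by_cases hx0 : x' = 0
    · rw [← ex s, hx0]
      show R2.H1.F4.st (j 0) (y t) = 0
      rw [map_zero, st0]
    by_cases hy0 : y' = 0
    · rw [← ey t, hy0]
      show R2.H1.F4.st (x s) (j 0) = 0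
      rw [map_zero, R2.H1.F4.st_comm, st0]
    obtain ⟨hX, hVX⟩ := hx'.isV hn (C.lt_card hn hi) hx0
    obtain ⟨hY, hVY⟩ := hy'.isV hm (C.lt_card hm hl) hy0
    have h1 := tens_zero C.card (fun r _ => digit_disj p hn hm hil r) hVX hVY hno (β := stV E C.three)
      (fun g x y => stV_eqv E C.act C.three g x y) (Submodule.subset_span (Set.mem_range_self s) : x' s ∈ _)
      (Submodule.subset_span (Set.mem_range_self t) : y' t ∈ _)
    rw [← ex, ← ey, ← j_stV E C.three, h1, map_zero]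
  intro v hv w hw
  induction hv using Submodule.span_induction with
  | mem v hv =>
    obtain ⟨s, rfl⟩ := hv
    induction hw using Submodule.span_induction with
    | mem w hw =>
      obtain ⟨t, rfl⟩ := hw
      exact key s t
    | zero => rw [R2.H1.F4.st_comm, st0]
    | add a b _ _ ha hb => rw [R2.H1.F4.st_add_right, ha, hb, add_zero]
    | smul c a _ ha => rw [R2.H1.F4.st_smul_right, ha, smul_zero]
  | zero => rw [st0]
  | add a b _ _ ha hb => rw [R2.H1.F4.st_add_left, ha, hb, add_zero]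
  | smul c a _ ha => rw [R2.H1.F4.st_smul_left, ha, smul_zero]

theorem Cx.inSoc_of (C : Cx ι p a ρ) (E : Em ρ σ j) {n i : ℕ} (hn : n < p) (hn1 : 1 ≤ n) (hi : i < a) {x : ℕ → I27 → k}
    (hx : TS ι p ρ n i x) (hx0 : x ≠ 0) : InSoc ι p σ (n * p ^ i) := by
  obtain ⟨x', hx', ex⟩ := E.lift C.act hn hn1 (C.lt_card hn hi) hx
  obtain ⟨hX, hVX⟩ := hx'.isV hn (C.lt_card hn hi) (by
    rintro rfl
    apply hx0
    funext s
    rw [← ex s]
    exact map_zero j)
  exact ⟨_, hX, hVX⟩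

theorem card_Bf_single' {n : ℕ} (hn : n < p) (C : Cx ι p a ρ) (hi : i < a) : (Bf k (n * p ^ i)).card = n + 1 := by
  have hV : IsV ι p (RB (k := k) ι p (C.lt_card hn hi)) (n * p ^ i) := isV_RB _
  rw [← hV.dim_single ι C.card hn]
  obtain ⟨-, -, -, -, -, -, h5, -⟩ := IsV.hw2 ι p hV
  exact h5.symm

/-- **two positions** -/
theorem Cx.pair2 (C : Cx ι p a ρ) (E : Em ρ σ j) (h26 : Module.finrank k V = 26) {i l : ℕ} (hi : i < a) (hl : l < a)
    (hil : i ≠ l) {x y : ℕ → I27 → k} (hx : TS ι p ρ 2 i x) (hx0 : x ≠ 0) (hy : TS ι p ρ 2 l y) (hy0 : y ≠ 0) : False := by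
  have hp5 := C.hp5
  have h3 := C.three
  obtain ⟨c, hc⟩ := C.exists_c hx
  obtain ⟨d, hd⟩ := C.exists_c hy
  have hc0 := C.c_ne hi hx hx0 hc
  have hd0 := C.c_ne hl hy hy0 hd
  obtain ⟨v, hv, hv0, hvv, hTv⟩ := two_y C.act hp5 C.seven C.fix hx hc hc0
  obtain ⟨w, hw, hw0, hww, hTw⟩ := two_y C.act hp5 C.seven C.fix hy hd hd0
  have h2i := (C.inSoc_of E (by omega) (by norm_num) hi hx hx0).mem_cf
  have hno := C.big44 h26 hil hi hl h2i (by rw [card_Bf_single' (by omega) C hi]; norm_num) (by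
    rw [card_Bf_single' (by omega) C hi]; norm_num)
  have hne : 4 * p ^ i ≠ 4 * p ^ l := fun h => hil (Nat.pow_right_injective (by omega : 2 ≤ p) (by
    exact Nat.eq_of_mul_eq_mul_left (by norm_num) h))
  have o := C.orth E (by omega) (by omega) (by norm_num) (by norm_num) hi hl hne (ts_sq2 C.act hp5 hx) (ts_sq2 C.act hp5 hy) v hv w hw
  have q := C.prod0 E (by omega) (by omega) (by norm_num) (by norm_num) hi hl hil hno (ts_sq2 C.act hp5 hx)
    (ts_sq2 C.act hp5 hy) v hv w hw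
  have e4 := R2.H1.F4.four C.two C.three hv0 hv0 hw0 hw0
  rw [q, hvv, hww, tf_smul_left, tf_smul_right, o, tf_zero_left, hTv, hTw] at e4
  have h1 : (8 / 3 * c ^ 2) * (8 / 3 * d ^ 2) = 0 := by
    have h23 : (2 / 3 : k) ≠ 0 := div_ne_zero C.two h3
    have : (2 / 3 : k) * ((8 / 3 * c ^ 2) * (8 / 3 * d ^ 2)) = 0 := by linear_combination -e4
    exact (mul_eq_zero.1 this).resolve_left h23
  have h8 : (8 / 3 : k) ≠ 0 := by
    refine div_ne_zero ?_ h3
    rw [show (8 : k) = 2 ^ 3 by norm_num]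
    exact pow_ne_zero _ C.two
  rcases mul_eq_zero.1 h1 with h | h
  · exact (mul_ne_zero h8 (pow_ne_zero 2 hc0)) h
  · exact (mul_ne_zero h8 (pow_ne_zero 2 hd0)) h

/-- the quadratic form -/
theorem Cx.form2 (C : Cx ι p a ρ) (hi : i < a) {x : ℕ → I27 → k} (hx : TS ι p ρ 2 i x) (hx0 : x ≠ 0) :
    tf (x 1) (x 1) - tf (x 0) (x 2) ≠ 0 := by
  obtain ⟨c, hc⟩ := C.exists_c hx
  have hc0 := C.c_ne hi hx hx0 hc
  have hp5 := C.hp5
  have htr := ts_tr C.act (by omega : 2 < p) (by norm_num) (C.lt_card (by omega) hi) hx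
  have h1 := congrArg tr1 hc
  rw [sub_eq_add_neg, ← neg_smul, tr1_add, tr1_smul, tr1_smul, tr1_cr, tr1_u0, htr, htr] at h1
  have h2 := tr1_sh (x 1)
  rw [htr] at h2
  intro h
  have h3 : 3 * c = 0 := by linear_combination h - h1 - h2
  exact hc0 ((mul_eq_zero.1 h3).resolve_left C.three)

/-- **uniqueness** -/
theorem Cx.uniq2 (C : Cx ι p a ρ) (hi : i < a) {x y : ℕ → I27 → k} (hx : TS ι p ρ 2 i x) (hx0 : x ≠ 0)
    (hy : TS ι p ρ 2 i y) : ∃ c : k, y = c • x := by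
  have h2 := C.two
  -- a root of the form on `y + e x`
  set A := tf (x 1) (x 1) - tf (x 0) (x 2) with hA
  have hA0 : A ≠ 0 := C.form2 hi hx hx0
  set B := 2 * tf (x 1) (y 1) - tf (x 0) (y 2) - tf (y 0) (x 2) with hB
  set D := tf (y 1) (y 1) - tf (y 0) (y 2) with hD
  obtain ⟨s, hs⟩ := IsAlgClosed.exists_pow_nat_eq (B ^ 2 - 4 * A * D) (n := 2) (by norm_num)
  set e : k := (-B + s) / (2 * A) with he
  have hroot : A * e ^ 2 + B * e + D = 0 := by
    have h1 : 4 * A * (A * e ^ 2 + B * e + D) = 0 := by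
      have h3 : 2 * A * e = -B + s := by
        rw [he]
        field_simp
      calc 4 * A * (A * e ^ 2 + B * e + D) = (2 * A * e) ^ 2 + 2 * B * (2 * A * e) + 4 * A * D := by ring
        _ = 0 := by rw [h3]; linear_combination hs
    have h4 : (4 : k) ≠ 0 := by
      rw [show (4 : k) = 2 * 2 by norm_num]
      exact mul_ne_zero h2 h2
    exact (mul_eq_zero.1 h1).resolve_left (mul_ne_zero h4 hA0)
  by_contra hne
  have hz : y + e • x ≠ 0 := by
    intro h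
    apply hne
    refine ⟨-e, ?_⟩
    rw [neg_smul]
    exact eq_neg_of_add_eq_zero_left h
  refine C.form2 hi (hy.add (hx.smul e)) hz ?_
  show tf (y 1 + e • x 1) (y 1 + e • x 1) - tf (y 0 + e • x 0) (y 2 + e • x 2) = 0
  simp only [tf_add_left, tf_add_right, tf_smul_left, tf_smul_right]
  rw [tf_comm (y 1) (x 1)]
  rw [← hroot, hA, hB, hD]
  ring

end Alg

end Cfsg.Agent.R2.F4L
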