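import Cfsg.Agent.R2.F4L.Cfs
import Cfsg.Agent.R2.F4L.Two
import Cfsg.Agent.R2.H28.SL2.L22
import Cfsg.Agent.R2.F4T.Sd

/-!
# `p = 7` : the Weyl module of highest weight `8` (helper2, S5931)

* `top_mem` : a submodule containing `β(x_1, x_1)` contains `β(x_4, x_4)`;
* `Yt`, `ts_Yt` : the submodule of type `(4, i)`;
* `cf_top8` : the quotient has type `p^i + p^(i+1)`.
-/

set_option autoImplicit false
set_option linter.unusedSectionVars false
set_option linter.unusedVariables false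

namespace Cfsg.Agent.R2.F4L

open Cfsg.Lie
open Cfsg.Agent.ChevalleyStructure.E6Min.Tables Cfsg.Agent.ChevalleyStructure.E6Min.Basic
open Cfsg.Agent.H952.F4 (sh cr tf tr1 u0)
open Cfsg.Agent.H952.F4.Jord
open Cfsg.Agent.H943.SL2Rel Cfsg.Agent.H943.SL2Mod Cfsg.Agent.R2.H28.SL2 Cfsg.Agent.H943.RepAdd
open Cfsg.Agent.R2.F4T (Iso Nd SD)

universe u v w

variable {k : Type u} [Field k] [DecidableEq k] {K : Type w} [Field K] [Fintype K] [DecidableEq K] {ι : K →+* k}
variable {p : ℕ} [Fact p.Prime] [CharP k p] [CharP K p] {a : ℕ}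

section Sq

variable {V : Type v} [AddCommGroup V] [Module k V] {σ : Representation k (Matrix.SpecialLinearGroup (Fin 2) K) V}
variable {V' : Type*} [AddCommGroup V'] [Module k V'] {τ : Representation k (Matrix.SpecialLinearGroup (Fin 2) K) V'}
variable {i : ℕ} {x : ℕ → V}
variable {β : V →ₗ[k] V →ₗ[k] V'} (hs : ∀ x y, β x y = β y x) (hβ : ∀ g x y, β (σ g x) (σ g y) = τ g (β x y))

include hs hβ in
/-- **the trick** -/
theorem top_mem (hQ : 7 ≤ Fintype.card K) (hx : TS ι p σ 4 i x) {M : Submodule k V'} (hM : ∀ g, ∀ z ∈ M, τ g z ∈ M)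
    (h : β (x 1) (x 1) ∈ M) : β (x 4) (x 4) ∈ M := by
  refine poly_mem (ι := ι) (p := p) (N := 7) hQ i (c := fun s => match s with
    | 0 => β (x 1) (x 1)
    | 1 => (6 : k) • β (x 1) (x 2)
    | 2 => (9 : k) • β (x 2) (x 2) + (6 : k) • β (x 1) (x 3)
    | 3 => (18 : k) • β (x 2) (x 3) + (2 : k) • β (x 1) (x 4)
    | 4 => (9 : k) • β (x 3) (x 3) + (6 : k) • β (x 2) (x 4)
    | 5 => (6 : k) • β (x 3) (x 4)
    | 6 => β (x 4) (x 4)
    | _ => 0) (fun t => ?_) 6 (by norm_num)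
  have h1 := hM (u t) _ h
  rw [← hβ, ts4_u1 hx] at h1
  simp only [map_add, map_smul, LinearMap.add_apply, LinearMap.smul_apply] at h1
  rw [hs (x 2) (x 1), hs (x 3) (x 1), hs (x 4) (x 1), hs (x 3) (x 2), hs (x 4) (x 2), hs (x 4) (x 3)] at h1
  simp only [Finset.sum_range_succ, Finset.sum_range_zero, zero_add]
  convert h1 using 1
  module

end Sq

section Y

variable {V : Type v} [AddCommGroup V] [Module k V] {σ : Representation k (Matrix.SpecialLinearGroup (Fin 2) K) V}
variable {i : ℕ} {D : ℕ → V}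

/-- the submodule of type `(4, i)` -/
def Yt (D : ℕ → V) : ℕ → V := fun s => match s with
  | 0 => D 2
  | 1 => -D 3
  | 2 => D 4
  | 3 => -D 5
  | 4 => D 6
  | _ => 0

theorem ts_Yt (hp : p = 7) (hD : WT ι p σ 8 i D) : TS ι p σ 4 i (Yt D) := by
  have h7 : (7 : k) = 0 := by
    have := CharP.cast_eq_zero k p
    rw [hp] at this
    exact_mod_cast this
  refine ts_of_bot (by omega) (fun s hs' => ?_) (fun t => ?_) (fun b => ?_) (fun s hs' => ?_)
  · match s with
    | 0 | 1 | 2 | 3 | 4 => omega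
    | s + 5 => rfl
  · show σ (u t) (D 2) = _
    rw [hD.u 2 (by norm_num)]
    simp only [show 8 - 2 + 1 = 7 by norm_num, Finset.sum_range_succ, Finset.sum_range_zero, zero_add, Yt]
    have e : ∀ n m c : ℕ, n.choose m = c → (n.choose m : k) = (c : k) := fun n m c h => by rw [h]
    rw [e (2 + 0) 2 1 (by decide), e (2 + 1) 2 3 (by decide), e (2 + 2) 2 6 (by decide), e (2 + 3) 2 10 (by decide),
      e (2 + 4) 2 15 (by decide), e (2 + 5) 2 21 (by decide), e (2 + 6) 2 28 (by decide), e 4 0 1 (by decide),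
      e 4 1 4 (by decide), e 4 3 4 (by decide), e 4 4 1 (by decide)]
    push_cast
    generalize ι t ^ p ^ i = r
    match_scalars <;> first
      | ring1
      | linear_combination r * h7
      | linear_combination (2 * r ^ 3) * h7
      | linear_combination (2 * r ^ 4) * h7
      | linear_combination (3 * r ^ 5) * h7
      | linear_combination (4 * r ^ 6) * h7
  · show σ (h b) (D 2) = ((ι b ^ p ^ i)⁻¹) ^ 4 • D 2
    have hb0 : ι (b : K) ^ p ^ i ≠ 0 := pow_ne_zero _ ((map_ne_zero ι).2 b.ne_zero)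
    rw [hD.h 2 (by norm_num)]
    congr 1
    norm_num
    field_simp
  · have hs'' : s = 0 ∨ s = 1 ∨ s = 2 ∨ s = 3 ∨ s = 4 := by omega
    rcases hs'' with rfl | rfl | rfl | rfl | rfl
    all_goals
      simp only [Yt, map_neg]
      rw [hD.w _ (by norm_num)]
      norm_num

theorem Yt_mem (D : ℕ → V) (s : ℕ) : Yt D s ∈ Submodule.span k (Set.range D) := by
  match s with
  | 0 => exact Submodule.subset_span ⟨2, rfl⟩
  | 1 => exact Submodule.neg_mem _ (Submodule.subset_span ⟨3, rfl⟩)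
  | 2 => exact Submodule.subset_span ⟨4, rfl⟩
  | 3 => exact Submodule.neg_mem _ (Submodule.subset_span ⟨5, rfl⟩)
  | 4 => exact Submodule.subset_span ⟨6, rfl⟩
  | s + 5 => exact Submodule.zero_mem _

theorem mem_Yt (D : ℕ → V) {s : ℕ} (h1 : 2 ≤ s) (h2 : s ≤ 6) : D s ∈ Submodule.span k (Set.range (Yt D)) := by
  have h : ∀ s, Yt D s ∈ Submodule.span k (Set.range (Yt D)) := fun s => Submodule.subset_span ⟨s, rfl⟩
  interval_cases s
  · exact h 0
  · have := Submodule.neg_mem _ (h 1)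
    simpa [Yt] using this
  · exact h 2
  · have := Submodule.neg_mem _ (h 3)
    simpa [Yt] using this
  · exact h 4

end Y

section Top

variable [IsAlgClosed k]
variable {V : Type v} [AddCommGroup V] [Module k V] [FiniteDimensional k V]
  {σ : Representation k (Matrix.SpecialLinearGroup (Fin 2) K) V} {i : ℕ}

/-- `c ^ (8 p^i) = c ^ (p^i + p^(i+1))` -/
theorem pow_eight (hp : p = 7) (hF : Fintype.card K = p ^ a) (hi : i < a) (c : K) :
    ι c ^ (8 * p ^ i) = ι c ^ (p ^ i + p ^ ((i + 1) % a)) := by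
  have h1 : ι c ^ (p ^ (i + 1)) = ι c ^ p ^ ((i + 1) % a) := by
    rcases Nat.lt_or_ge (i + 1) a with h | h
    · rw [Nat.mod_eq_of_lt h]
    · have : i + 1 = a := by omega
      rw [this, Nat.mod_self, pow_zero, pow_one, ← hF, ← map_pow, FiniteField.pow_card]
  rw [pow_add (ι c) (p ^ i), ← h1, ← pow_add]
  congr 1
  rw [pow_succ, hp]
  ring

theorem lab_lt (hp : p = 7) (ha : 2 ≤ a) (hi : i < a) : p ^ i + p ^ ((i + 1) % a) + 1 < p ^ a := by
  have h1 : (i + 1) % a < a := Nat.mod_lt _ (by omega)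
  have h2 : p ^ i ≤ p ^ (a - 1) := Nat.pow_le_pow_right (by omega) (by omega)
  have h3 : p ^ ((i + 1) % a) ≤ p ^ (a - 1) := Nat.pow_le_pow_right (by omega) (by omega)
  have h4 : p ^ a = p ^ (a - 1) * 7 := by
    rw [← hp, ← pow_succ]
    congr 1
    omega
  have h5 : 0 < p ^ (a - 1) := Nat.pow_pos (by omega)
  omega

theorem lab_ne (ha : 2 ≤ a) (hi : i < a) : i ≠ (i + 1) % a := by
  rcases Nat.lt_or_ge (i + 1) a with h | h
  · rw [Nat.mod_eq_of_lt h]
    omega
  · have : i + 1 = a := by omega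
    rw [this, Nat.mod_self]
    omega

theorem card_lab (ι : K →+* k) (hp : p = 7) (hF : Fintype.card K = p ^ a) (ha : 2 ≤ a) (hi : i < a) :
    (Bf k (p ^ i + p ^ ((i + 1) % a))).card = 4 := by
  have h0 := lab_lt hp ha hi
  have hV : IsV ι p (RB (k := k) ι p (b := p ^ i + p ^ ((i + 1) % a)) (by rw [hF]; omega)) (p ^ i + p ^ ((i + 1) % a)) := isV_RB _
  have h1 : IsV ι p (RB (k := k) ι p (b := p ^ i + p ^ ((i + 1) % a)) (by rw [hF]; omega)) (1 * p ^ i + 1 * p ^ ((i + 1) % a)) := by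
    rw [one_mul, one_mul]
    exact hV
  obtain ⟨-, -, -, -, -, -, h5, -⟩ := IsV.hw2 ι p hV
  rw [← h5, h1.dim_pair ι hF (by omega) (by omega) (lab_ne ha hi) hi (Nat.mod_lt _ (by omega))]

theorem Bf_pos (k : Type u) [Field k] [DecidableEq k] (b : ℕ) : 0 < (Bf k b).card :=
  Finset.card_pos.2 ⟨0, by rw [mem_Bf]; exact ⟨Nat.zero_le _, by rw [Nat.choose_zero_right, Nat.cast_one]; exact one_ne_zero⟩⟩

/-- **the top factor of the Weyl module** -/
theorem cf_top8 (hp : p = 7) (hF : Fintype.card K = p ^ a) (ha : 2 ≤ a) (hi : i < a) {z : ℕ → V} (hz : WT ι p σ 8 i z)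
    (h26 : ∀ s, 2 ≤ s → s ≤ 6 → z s = 0) (hsp : ⊤ ≤ Submodule.span k (Set.range z)) (h8 : z 8 ≠ 0) :
    cf (Sy.{u, v, w} ι p) σ = {p ^ i + p ^ ((i + 1) % a)} := by
  classical
  have hlt := lab_lt hp ha hi
  obtain ⟨b', hb', he⟩ := hw_mem_cf (ι := ι) (p := p) (ρ := σ) h8 (c := 8 * p ^ i) hz.u_top (fun b => by
    rw [hz.h 8 le_rfl b]
    congr 1
    norm_num
    rw [← pow_mul, mul_comm])
  have h1 : b' = p ^ i + p ^ ((i + 1) % a) := by
    refine label_eq ι (by rw [hF]; exact cf_lt ι p hF σ b' hb') (by rw [hF]; omega) ?_ (by rw [hF]; omega) (fun b => ?_)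
    · have := Nat.pow_pos (n := i) (Fact.out : p.Prime).pos
      omega
    · rw [he b, pow_eight hp hF hi]
  rw [h1] at hb'
  obtain ⟨t, ht⟩ := Multiset.exists_cons_of_mem hb'
  have h2 := finrank_cf ι p _ _ σ le_rfl
  rw [ht, Multiset.map_cons, Multiset.sum_cons, card_lab ι hp hF ha hi] at h2
  have h3 : Module.finrank k V ≤ 4 := by
    have h4 : (⊤ : Submodule k V) ≤ Submodule.span k ((({z 0, z 1, z 7, z 8} : Finset V) : Set V)) := by
      refine hsp.trans (Submodule.span_le.2 ?_)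
      rintro _ ⟨s, rfl⟩
      by_cases hs : s ≤ 8
      · by_cases hs2 : 2 ≤ s ∧ s ≤ 6
        · rw [h26 s hs2.1 hs2.2]
          exact Submodule.zero_mem _
        · refine Submodule.subset_span ?_
          have : s = 0 ∨ s = 1 ∨ s = 7 ∨ s = 8 := by omega
          rcases this with rfl | rfl | rfl | rfl <;> simp
      · rw [hz.zero s (by omega)]
        exact Submodule.zero_mem _
    have h5 := finrank_span_finset_le_card (R := k) ({z 0, z 1, z 7, z 8} : Finset V)
    have h6 : ({z 0, z 1, z 7, z 8} : Finset V).card ≤ 4 := Finset.card_le_four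
    have h7 := Submodule.finrank_mono h4
    rw [finrank_top] at h7
    exact h7.trans (h5.trans h6)
  have h4 : t = 0 := by
    by_contra h0
    obtain ⟨c, hc⟩ := Multiset.exists_mem_of_ne_zero h0
    obtain ⟨t', ht'⟩ := Multiset.exists_cons_of_mem hc
    have := Bf_pos k c
    rw [ht', Multiset.map_cons, Multiset.sum_cons] at h2
    omega
  rw [ht, h4]
  rfl

end Top

end Cfsg.Agent.R2.F4L
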