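import Cfsg.Agent.R2.F4L.TupC
import Cfsg.Agent.H952.F4.FixV

/-!
# Tuples in the Albert algebra (helper2, S5931)

* `Em.dul` : the duality; `Em.lift` : tuples lie in `J_0`;
* `Cx.hv_of` : `x_4 ^ # = 0` if the label of weight `8 p ^ i` is not a factor;
* `Cx.dead4` : the tuples of type `(4, i)`.
-/

set_option autoImplicit false
set_option linter.unusedSectionVars false
set_option linter.unusedVariables false

namespace Cfsg.Agent.R2.F4L

open Cfsg.Lie
open Cfsg.Agent.ChevalleyStructure.E6Min.Tables Cfsg.Agent.ChevalleyStructure.E6Min.Basic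
open Cfsg.Agent.H952.F4 (sh cr tf tr1 u0)
open Cfsg.Agent.H952.F4.Jord
open Cfsg.Agent.H952.F4.FixV (trL trL_apply)
open Cfsg.Agent.H943.SL2Rel Cfsg.Agent.H943.SL2Mod Cfsg.Agent.R2.H28.SL2 Cfsg.Agent.H943.RepAdd
open Cfsg.Agent.R2.GEO (tfB tfB_apply)

universe u v w

variable {k : Type u} [Field k] [DecidableEq k] {K : Type w} [Field K] [Fintype K] [DecidableEq K] {ι : K →+* k}
variable {p : ℕ} [Fact p.Prime] [CharP k p] [CharP K p] {a : ℕ}

section Tup

variable {V : Type v} [AddCommGroup V] [Module k V] {σ : Representation k (Matrix.SpecialLinearGroup (Fin 2) K) V}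
variable {n i : ℕ} {x y : ℕ → V}

/-- the image of a tuple -/
theorem TS.map {V' : Type*} [AddCommGroup V'] [Module k V'] {σ' : Representation k (Matrix.SpecialLinearGroup (Fin 2) K) V'}
    (hx : TS ι p σ n i x) (f : V →ₗ[k] V') (hf : ∀ g x, f (σ g x) = σ' g (f x)) :
    TS ι p σ' n i (fun s => f (x s)) where
  zero := fun s hs => by rw [hx.zero s hs, map_zero]
  u := fun s hs t => by
    rw [← hf, hx.u s hs, map_sum]
    exact Finset.sum_congr rfl fun j _ => map_smul _ _ _
  h := fun s hs b => by rw [← hf, hx.h s hs, map_smul]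
  w := fun s hs => by rw [← hf, hx.w s hs, map_smul]

/-- tuples pull back along injective maps -/
theorem TS.comap {V' : Type*} [AddCommGroup V'] [Module k V'] {σ' : Representation k (Matrix.SpecialLinearGroup (Fin 2) K) V'}
    (f : V →ₗ[k] V') (hf : ∀ g x, f (σ g x) = σ' g (f x)) (hi : Function.Injective f)
    (hx : TS ι p σ' n i (fun s => f (x s))) : TS ι p σ n i x where
  zero := fun s hs => hi (by rw [map_zero]; exact hx.zero s hs)
  u := fun s hs t => hi (by
    rw [hf, map_sum]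
    refine (hx.u s hs t).trans (Finset.sum_congr rfl fun j _ => (map_smul _ _ _).symm))
  h := fun s hs b => hi (by rw [hf, map_smul]; exact hx.h s hs b)
  w := fun s hs => hi (by rw [hf, map_smul]; exact hx.w s hs)

theorem p_le (K : Type w) [Field K] [Fintype K] (p : ℕ) [Fact p.Prime] [CharP K p] : p ≤ Fintype.card K := by
  obtain ⟨n, hp, hn⟩ := FiniteField.card K p
  rw [hn]
  exact Nat.le_self_pow n.ne_zero p

/-- tuples in a trivial module -/
theorem TS.triv (hn : n < p) (hn1 : 1 ≤ n) (hb : n * p ^ i ≤ Fintype.card K - 1) (hx : TS ι p σ n i x)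
    (ht : ∀ g v, σ g v = v) : x = 0 := by
  refine hx.zero_of hn hb (s := n) le_rfl ?_
  have hpK := p_le K p
  have h1 : ∀ t : K, ∑ j ∈ Finset.range (n + 1), (ι t ^ p ^ i) ^ j •
      (if j = 0 then (0 : V) else ((n.choose j : k)) • x j) = 0 := by
    intro t
    have h2 := hx.u_bot t
    rw [ht, Finset.sum_range_succ', Nat.choose_zero_right, Nat.cast_one, pow_zero, mul_one, one_smul] at h2
    have h3 := right_eq_add.1 h2
    rw [Finset.sum_range_succ', if_pos rfl, smul_zero, add_zero]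
    refine Eq.trans (Finset.sum_congr rfl fun j _ => ?_) h3
    rw [if_neg (Nat.succ_ne_zero j), smul_smul, mul_comm]
  have h2 := poly0 ι (by omega) p i h1 n (by omega)
  rw [if_neg (by omega), Nat.choose_self, Nat.cast_one, one_smul] at h2
  exact h2

/-- the elements of the span of a tuple -/
theorem TS.mem_span (hx : TS ι p σ n i x) {m : V} (hm : m ∈ Submodule.span k (Set.range x)) :
    ∃ c : ℕ → k, m = ∑ s ∈ Finset.range (n + 1), c s • x s := by
  induction hm using Submodule.span_induction with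
  | mem m hm =>
    obtain ⟨s, rfl⟩ := hm
    by_cases hs : s ≤ n
    · refine ⟨fun j => if j = s then 1 else 0, ?_⟩
      rw [Finset.sum_eq_single s]
      · show x s = (if s = s then (1 : k) else 0) • x s
        rw [if_pos rfl, one_smul]
      · intro j _ hj
        show (if j = s then (1 : k) else 0) • x j = 0
        rw [if_neg hj, zero_smul]
      · intro h
        exact absurd (Finset.mem_range.2 (by omega)) h
    · exact ⟨0, by rw [hx.zero s (by omega)]; simp⟩
  | zero => exact ⟨0, by simp⟩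
  | add m m' _ _ h h' =>
    obtain ⟨c, rfl⟩ := h
    obtain ⟨c', rfl⟩ := h'
    refine ⟨c + c', ?_⟩
    rw [← Finset.sum_add_distrib]
    exact Finset.sum_congr rfl fun s _ => (add_smul _ _ _).symm
  | smul b m _ h =>
    obtain ⟨c, rfl⟩ := h
    refine ⟨b • c, ?_⟩
    rw [Finset.smul_sum]
    exact Finset.sum_congr rfl fun s _ => smul_smul _ _ _

end Tup

section Emb

variable {ρ : Representation k (Matrix.SpecialLinearGroup (Fin 2) K) (I27 → k)}
variable {V : Type v} [AddCommGroup V] [Module k V] {σ : Representation k (Matrix.SpecialLinearGroup (Fin 2) K) V}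
variable {j : V →ₗ[k] (I27 → k)} {n i : ℕ}

/-- the form on `V` -/
noncomputable def Pj (j : V →ₗ[k] (I27 → k)) : V →ₗ[k] V →ₗ[k] k := (tfB k).compl₁₂ j j

theorem Pj_apply (x y : V) : Pj j x y = tf (j x) (j y) := rfl

/-- **duality** -/
theorem Em.dul (E : Em ρ σ j) (H : Act ρ) (h3 : (3 : k) ≠ 0) : Dul σ σ (Pj j) := by
  have key : ∀ x : V, (∀ y, tf (j x) (j y) = 0) → x = 0 := by
    intro x hx
    apply E.inj
    rw [map_zero]
    refine tf_nondeg fun y => ?_
    have h1 : tr1 (y + (-(tr1 y * 3⁻¹)) • u0 k) = 0 := by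
      rw [tr1_add, tr1_smul, tr1_u0]
      field_simp
      ring
    obtain ⟨z, hz⟩ := E.sur _ h1
    have h2 := hx z
    rw [hz, tf_add_right, tf_smul_right, tf_comm (j x) (u0 k), tf_u0, E.tr, mul_zero, add_zero] at h2
    exact h2
  exact ⟨fun g x y => by rw [Pj_apply, Pj_apply, E.eqv, E.eqv, H.tf], key,
    fun y hy => key y fun x => by rw [tf_comm]; exact hy x⟩

/-- tuples of positive type have trace zero -/
theorem ts_tr (H : Act ρ) (hn : n < p) (hn1 : 1 ≤ n) (hb : n * p ^ i ≤ Fintype.card K - 1) {y : ℕ → I27 → k}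
    (hy : TS ι p ρ n i y) (s : ℕ) : tr1 (y s) = 0 := by
  have h1 : TS ι p (1 : Representation k (Matrix.SpecialLinearGroup (Fin 2) K) k) n i (fun s => trL k (y s)) :=
    hy.map (trL k) (fun g x => by
      rw [trL_apply, trL_apply, H.tr]
      rfl)
  have h2 := h1.triv hn hn1 hb (fun g v => rfl)
  have h3 := congrFun h2 s
  rw [trL_apply] at h3
  exact h3

/-- **tuples lie in `J_0`** -/
theorem Em.lift (E : Em ρ σ j) (H : Act ρ) (hn : n < p) (hn1 : 1 ≤ n) (hb : n * p ^ i ≤ Fintype.card K - 1)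
    {y : ℕ → I27 → k} (hy : TS ι p ρ n i y) : ∃ x : ℕ → V, TS ι p σ n i x ∧ ∀ s, j (x s) = y s := by
  have h1 : ∀ s, ∃ x, j x = y s := fun s => E.sur _ (ts_tr H hn hn1 hb hy s)
  choose x hx using h1
  refine ⟨x, TS.comap (σ' := ρ) j E.eqv E.inj ?_, hx⟩
  have : (fun s => j (x s)) = y := funext hx
  rw [this]
  exact hy

theorem Em.push (E : Em ρ σ j) {x : ℕ → V} (hx : TS ι p σ n i x) : TS ι p ρ n i (fun s => j (x s)) := hx.map j E.eqv

section Alg

variable [IsAlgClosed k] [FiniteDimensional k V]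

/-- **highest weight vectors in `J_0`** -/
theorem Cx.hw0 (C : Cx ι p a ρ) (E : Em ρ σ j) {m : I27 → k} (hu : ∀ t, ρ (u t) m = m) {c : ℕ}
    (hh : ∀ b : Kˣ, ρ (h b) m = ι b ^ c • m) (hc : c < Fintype.card K) (hc0 : c ≠ 0) (hc1 : c ≠ Fintype.card K - 1)
    (hcf : c ∉ cf (Sy.{u, v, w} ι p) σ) : m = 0 := by
  by_contra hm
  have htr : tr1 m = 0 := by
    obtain ⟨lam, hlam⟩ := exists_prim (k := k) ι 0 p
    rw [pow_zero, pow_one] at hlam
    have h1 := C.act.tr (Cfsg.Agent.H943.SL2Rel.h lam) m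
    rw [hh, tr1_smul] at h1
    have h2 : (ι lam ^ c - 1) * tr1 m = 0 := by linear_combination h1
    refine (mul_eq_zero.1 h2).resolve_left (sub_ne_zero.2 fun h3 => ?_)
    have h4 := Nat.le_of_dvd (by omega) ((hlam.pow_eq_one_iff_dvd c).1 h3)
    omega
  obtain ⟨v, rfl⟩ := E.sur m htr
  have hv : v ≠ 0 := by
    rintro rfl
    exact hm (map_zero j)
  obtain ⟨b, hb, hb'⟩ := hw_mem_cf.{u, v, w} (c := c) (ρ := σ) ι p hv (fun t => E.inj (by rw [E.eqv, hu])) (fun b => E.inj (by
    rw [E.eqv, hh, map_smul]))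
  have h1 : b < Fintype.card K := by
    rw [C.card]
    exact cf_lt ι p C.card σ b hb
  rw [label_eq ι h1 hc hc0 hc1 hb'] at hb
  exact hcf hb

/-- `x_4 ^ # = 0` -/
theorem Cx.hv_of (C : Cx ι p a ρ) (E : Em ρ σ j) {c : ℕ} (hw8 : ∀ b : Kˣ, ι b ^ (8 * p ^ i) = ι b ^ c)
    (hc : c < Fintype.card K) (hc0 : c ≠ 0) (hc1 : c ≠ Fintype.card K - 1)
    (hcf : c ∉ cf (Sy.{u, v, w} ι p) σ) {y : ℕ → I27 → k} (hy : TS ι p ρ 4 i y) : sh (y 4) = 0 := by
  refine C.hw0 E (fun t => ?_) (c := c) (fun b => ?_) hc hc0 hc1 hcf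
  · rw [C.act.sh, hy.u_top]
  · rw [C.act.sh, hy.h 4 le_rfl, sh_smul, ← hw8]
    congr 1
    ring

theorem Cx.hQ (C : Cx ι p a ρ) (h : p ≠ 5 ∨ 2 ≤ a) (h' : p ≠ 7 ∨ 2 ≤ a) : 11 ≤ Fintype.card K := by
  have hp5 := C.hp5
  have hp : p.Prime := Fact.out
  rw [C.card]
  have ha : 1 ≤ a := by
    have := C.seven
    rw [C.card] at this
    by_contra h0
    rw [show a = 0 by omega, pow_zero] at this
    omega
  by_cases ha2 : 2 ≤ a
  · calc 11 ≤ 5 ^ 2 := by norm_num
      _ ≤ p ^ 2 := Nat.pow_le_pow_left hp5 2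
      _ ≤ p ^ a := Nat.pow_le_pow_right hp.pos ha2
  · have h5 : p ≠ 5 := h.resolve_right ha2
    have h7 : p ≠ 7 := h'.resolve_right ha2
    have h6 : p ≠ 6 := by rintro rfl; revert hp; norm_num
    have h8 : p ≠ 8 := by rintro rfl; revert hp; norm_num
    have h9 : p ≠ 9 := by rintro rfl; revert hp; norm_num
    have h10 : p ≠ 10 := by rintro rfl; revert hp; norm_num
    calc 11 ≤ p := by omega
      _ = p ^ 1 := (pow_one p).symm
      _ ≤ p ^ a := Nat.pow_le_pow_right hp.pos ha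

/-- the hypotheses of `F4Hyp` -/
theorem Cx.f4 (C : Cx ι p a ρ) (hQ : 11 ≤ Fintype.card K) (hv : ∀ y, TS ι p ρ 4 i y → sh (y 4) = 0) : F4Hyp ι p ρ i :=
  ⟨C.act, C.hp5, hQ, C.fix, hv⟩

theorem Cx.lt_card (C : Cx ι p a ρ) (hn : n < p) (hi : i < a) : n * p ^ i ≤ Fintype.card K - 1 := by
  have := single_lt p hn hi
  rw [C.card]
  omega

/-- the white tuples -/
theorem Cx.ts_white (C : Cx ι p a ρ) (hn : n < p) (hi : i < a) {y : ℕ → I27 → k} (hy : TS ι p ρ n i y)
    (hs : ∀ c : ℕ → k, sh (∑ s ∈ Finset.range (n + 1), c s • y s) = 0) : y = 0 := by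
  by_contra h0
  obtain ⟨hX, -⟩ := hy.isV hn (C.lt_card hn hi) h0
  have h1 := C.white _ hX (fun m hm => by
    obtain ⟨c, rfl⟩ := hy.mem_span hm
    exact hs c)
  apply h0
  funext s
  have h2 : y s ∈ Submodule.span k (Set.range y) := Submodule.subset_span ⟨s, rfl⟩
  rw [h1, Submodule.mem_bot] at h2
  exact h2

/-- **the tuples of type `(4, i)`** -/
theorem Cx.dead4 (C : Cx ι p a ρ) (E : Em ρ σ j) (hQ : 11 ≤ Fintype.card K) (hi : i < a)
    (hv : ∀ y, TS ι p ρ 4 i y → sh (y 4) = 0) (hc : (cf (Sy.{u, v, w} ι p) σ).count (4 * p ^ i) ≤ 3)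
    (h : InSoc ι p σ (4 * p ^ i)) :
    ∃ z : ℕ → I27 → k, TS ι p ρ 4 i z ∧ tf (z 2) (z 2) ≠ 0 ∧ ∀ y : ℕ → I27 → k, TS ι p ρ 4 i y → ∃ c : k, y = c • z := by
  have hp5 := C.hp5
  have hF := C.f4 hQ hv
  have hb := C.lt_card (n := 4) (i := i) (by omega) hi
  obtain ⟨X, hX, hV⟩ := h
  obtain ⟨x, hx, hxJ, hxX, hspan, hne⟩ := ts_of_isV E (by omega : 4 < p) hV
  refine hF.dead ?_ ?_ hxJ (fun h0 => hne 0 (by norm_num) (E.inj (by rw [map_zero]; exact congrFun h0 0)))
  · intro y hy hs
    refine C.ts_white (by omega) hi hy fun c => ?_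
    simp only [Finset.sum_range_succ, Finset.sum_range_zero, zero_add]
    exact hs _ _ _ _ _
  · intro y z hy hz hry hrz hy0
    by_contra hne'
    obtain ⟨y', hy', ey⟩ := E.lift C.act (by omega) (by norm_num) hb hy
    obtain ⟨z', hz', ez⟩ := E.lift C.act (by omega) (by norm_num) hb hz
    have hy0' : y' ≠ 0 := by
      rintro rfl
      apply hy0
      funext s
      rw [← ey s]
      exact map_zero j
    have hz0' : z' ≠ 0 := by
      rintro rfl
      apply hne'
      refine ⟨0, funext fun s => ?_⟩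
      rw [← ez s, zero_smul]
      exact map_zero j
    obtain ⟨hY, hVY⟩ := hy'.isV (by omega) hb hy0'
    obtain ⟨hZ, hVZ⟩ := hz'.isV (by omega) hb hz0'
    have hle : ¬ Submodule.span k (Set.range z') ≤ Submodule.span k (Set.range y') := by
      intro hle
      obtain ⟨c, hc⟩ := hy'.schur (by omega) hz' hVY (fun s => Submodule.subset_span ⟨s, rfl⟩)
        (fun s => hle (Submodule.subset_span ⟨s, rfl⟩)) hy0'
      apply hne'
      refine ⟨c, funext fun s => ?_⟩
      rw [← ez s, hc]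
      show j (c • y' s) = c • y s
      rw [map_smul, ey s]
    have orth : ∀ {y z : ℕ → I27 → k} {y' z' : ℕ → V}, TS ι p ρ 4 i y → TS ι p ρ 4 i z → (∀ s, j (y' s) = y s) →
        (∀ s, j (z' s) = z s) → RadT ι p ρ i y → ∀ m ∈ Submodule.span k (Set.range y'),
        ∀ m' ∈ Submodule.span k (Set.range z'), Pj j m m' = 0 := by
      intro y z y' z' hy hz ey ez hr m hm m' hm'
      have h1 := ts4_orth C.act C.hp5 hQ hy hz (hr z hz)
      induction hm using Submodule.span_induction with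
      | mem m hm =>
        obtain ⟨s, rfl⟩ := hm
        induction hm' using Submodule.span_induction with
        | mem m' hm' =>
          obtain ⟨t, rfl⟩ := hm'
          rw [Pj_apply, ey, ez]
          exact h1 s t
        | zero => rw [map_zero]
        | add a b _ _ ha hb => rw [map_add, ha, hb, add_zero]
        | smul c a _ ha => rw [map_smul, ha, smul_zero]
      | zero => rw [map_zero, LinearMap.zero_apply]
      | add a b _ _ ha hb => rw [map_add, LinearMap.add_apply, ha, hb, add_zero]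
      | smul c a _ ha => rw [map_smul, LinearMap.smul_apply, ha, smul_zero]
    have h4 := count_two (E.dul C.act C.three) hVY hVZ hle (orth hy hy ey ey hry) (orth hy hz ey ez hry)
      (orth hz hy ez ey hrz) (orth hz hz ez ez hrz)
    omega

end Alg

end Emb

end Cfsg.Agent.R2.F4L
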