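import Cfsg.Agent.R2.F4L.Form
import Cfsg.Agent.R2.H28.SL2.Bas

/-!
# Two digits (helper2, S5931)

* `poly2` : coefficients of polynomials in `τ^(p^i), τ^(p^j)`;
* `bp_form` : the value of an invariant form on two bases of `V_{2 p^i + 2 p^j}`.
-/

set_option autoImplicit false
set_option linter.unusedSectionVars false
set_option linter.unusedVariables false

namespace Cfsg.Agent.R2.F4L

open Cfsg.Agent.H943.SL2Rel Cfsg.Agent.H943.SL2Mod Cfsg.Agent.R2.H28.SL2 Cfsg.Agent.H943.RepAdd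

universe u v w

theorem pair_inj {p : ℕ} (hp : 0 < p) {i j s s' r r' : ℕ} (hij : i ≠ j) (hs : s < p) (hs' : s' < p) (hr : r < p)
    (hr' : r' < p) (h : s * p ^ i + s' * p ^ j = r * p ^ i + r' * p ^ j) : s = r ∧ s' = r' := by
  have key : ∀ {i j s s' r r' : ℕ}, i < j → s < p → r < p → s * p ^ i + s' * p ^ j = r * p ^ i + r' * p ^ j →
      s = r ∧ s' = r' := by
    intro i j s s' r r' hij hs hr h
    have hpj : 0 < p ^ j := Nat.pow_pos hp
    have hpi : 0 < p ^ i := Nat.pow_pos hp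
    have hlt : ∀ s < p, s * p ^ i < p ^ j := by
      intro s hs
      calc s * p ^ i < p * p ^ i := Nat.mul_lt_mul_of_pos_right hs hpi
        _ = p ^ (i + 1) := by rw [pow_succ, mul_comm]
        _ ≤ p ^ j := Nat.pow_le_pow_right hp hij
    have h1 : (s * p ^ i + s' * p ^ j) / p ^ j = s' := by
      rw [Nat.add_mul_div_right _ _ hpj, Nat.div_eq_of_lt (hlt s hs), zero_add]
    have h2 : (r * p ^ i + r' * p ^ j) / p ^ j = r' := by
      rw [Nat.add_mul_div_right _ _ hpj, Nat.div_eq_of_lt (hlt r hr), zero_add]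
    have h3 : s' = r' := by rw [← h1, ← h2, h]
    subst h3
    exact ⟨Nat.eq_of_mul_eq_mul_right hpi (Nat.add_right_cancel h), rfl⟩
  rcases Nat.lt_or_gt_of_ne hij with h1 | h1
  · exact key h1 hs hr h
  · have := key h1 hs' hr' (by rw [add_comm, h, add_comm])
    exact ⟨this.2, this.1⟩

variable {k : Type u} [Field k] [DecidableEq k] {K : Type w} [Field K] [Fintype K] [DecidableEq K] {ι : K →+* k}
variable {p : ℕ} [Fact p.Prime] [CharP k p] [CharP K p] {a : ℕ}
variable {V : Type*} [AddCommGroup V] [Module k V] {σ : Representation k (Matrix.SpecialLinearGroup (Fin 2) K) V}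
variable {V' : Type*} [AddCommGroup V'] [Module k V'] {σ' : Representation k (Matrix.SpecialLinearGroup (Fin 2) K) V'}

/-- **polynomials in two Frobenius powers** -/
theorem poly2 (hF : Fintype.card K = p ^ a) {i j : ℕ} (hij : i ≠ j) (hi : i < a) (hj : j < a) {N M : ℕ} (hN : N ≤ p)
    (hM : M ≤ p) {c : ℕ → ℕ → V} (h : ∀ t : K, ∑ s ∈ Finset.range N, ∑ s' ∈ Finset.range M,
      ((ι t ^ p ^ i) ^ s * (ι t ^ p ^ j) ^ s') • c s s' = 0) : ∀ s < N, ∀ s' < M, c s s' = 0 := by
  have hp : p.Prime := Fact.out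
  let A : ℕ → V := fun e => ∑ s ∈ Finset.range N, ∑ s' ∈ Finset.range M, if s * p ^ i + s' * p ^ j = e then c s s' else 0
  have h1 : ∀ t : K, ∑ e ∈ Finset.range (p ^ a), (ι t ^ p ^ 0) ^ e • A e = 0 := by
    intro t
    rw [← h t]
    show ∑ e ∈ Finset.range (p ^ a), (ι t ^ p ^ 0) ^ e • (∑ s ∈ Finset.range N, ∑ s' ∈ Finset.range M,
      if s * p ^ i + s' * p ^ j = e then c s s' else 0) = _
    simp only [Finset.smul_sum]
    rw [Finset.sum_comm]
    refine Finset.sum_congr rfl fun s hs => ?_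
    rw [Finset.sum_comm]
    refine Finset.sum_congr rfl fun s' hs' => ?_
    rw [Finset.mem_range] at hs hs'
    rw [Finset.sum_eq_single (s * p ^ i + s' * p ^ j)]
    · rw [if_pos rfl, pow_zero, pow_one, pow_add, ← pow_mul, ← pow_mul, mul_comm (p ^ i), mul_comm (p ^ j)]
    · intro e _ he
      rw [if_neg (Ne.symm he), smul_zero]
    · intro he
      exact absurd (Finset.mem_range.2 (pair_lt p (by omega) (by omega) hij hi hj)) he
  intro s hs s' hs'
  have h2 := poly0 ι (N := p ^ a) hF.ge p 0 h1 (s * p ^ i + s' * p ^ j) (pair_lt p (by omega) (by omega) hij hi hj)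
  rw [← h2]
  show _ = ∑ r ∈ Finset.range N, ∑ r' ∈ Finset.range M, if r * p ^ i + r' * p ^ j = s * p ^ i + s' * p ^ j then c r r' else 0
  rw [Finset.sum_eq_single s, Finset.sum_eq_single s', if_pos rfl]
  · intro r' hr' hne
    rw [Finset.mem_range] at hr'
    rw [if_neg]
    intro h3
    exact hne (pair_inj hp.pos hij (by omega) (by omega) (by omega) (by omega) h3).2
  · intro h3
    exact absurd (Finset.mem_range.2 hs') h3
  · intro r hr hne
    rw [Finset.mem_range] at hr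
    refine Finset.sum_eq_zero fun r' hr' => ?_
    rw [Finset.mem_range] at hr'
    rw [if_neg]
    intro h3
    exact hne (pair_inj hp.pos hij (by omega) (by omega) (by omega) (by omega) h3).1
  · intro h3
    exact absurd (Finset.mem_range.2 hs) h3

variable {i j : ℕ} {x : ℕ → ℕ → V} {y : ℕ → ℕ → V'} {P : V →ₗ[k] V' →ₗ[k] k}

/-- two-digit tuples -/
structure TP (ι : K →+* k) (p : ℕ) (σ : Representation k (Matrix.SpecialLinearGroup (Fin 2) K) V) (i j : ℕ) (x : ℕ → ℕ → V) :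
    Prop where
  u : ∀ t, σ (u t) (x 0 0) = ∑ s ∈ Finset.range 3, ∑ s' ∈ Finset.range 3,
    (((2 : ℕ).choose s : k) * ((2 : ℕ).choose s' : k) * ((ι t ^ p ^ i) ^ s * (ι t ^ p ^ j) ^ s')) • x s s'
  top : ∀ t, σ (Cfsg.Agent.H943.SL2Rel.u t) (x 2 2) = x 2 2
  w : ∀ s ≤ 2, ∀ s' ≤ 2, σ w (x s s') = ((-1 : k) ^ s * (-1 : k) ^ s') • x (2 - s) (2 - s')

theorem BasP.tp {X : Submodule k V} {hX : ∀ g, ∀ x ∈ X, σ g x ∈ X} {v : ℕ → ℕ → X}
    (hv : BasP ι p (subRep σ X hX) 2 i 2 j v) : TP ι p σ i j (fun s s' => (v s s' : V)) where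
  u := fun t => by
    have h1 := congrArg (Subtype.val) (hv.u 0 (by norm_num) 0 (by norm_num) t)
    refine Eq.trans h1 ?_
    simp only [Finset.sum_range_succ, Finset.sum_range_zero, zero_add, Submodule.coe_add, Submodule.coe_smul, Nat.sub_zero]
    module
  top := fun t => by
    have h1 := congrArg (Subtype.val) (hv.u 2 (by norm_num) 2 (by norm_num) t)
    refine Eq.trans h1 ?_
    simp
  w := fun s hs s' hs' => congrArg (Subtype.val) (hv.w s hs s' hs')

/-- the form, first part -/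
theorem tp_form0 (hF : Fintype.card K = p ^ a) (hp3 : 3 ≤ p) (hij : i ≠ j) (hi : i < a) (hj : j < a)
    (hP : ∀ g x y, P (σ g x) (σ' g y) = P x y) (hx : TP ι p σ i j x) (hy : TP ι p σ' i j y) {s s' : ℕ} (hs : s ≤ 2)
    (hs' : s' ≤ 2) (h : s ≠ 0 ∨ s' ≠ 0) : P (x 2 2) (y s s') = 0 := by
  have h1 : ∀ t : K, ∑ s ∈ Finset.range 3, ∑ s' ∈ Finset.range 3, ((ι t ^ p ^ i) ^ s * (ι t ^ p ^ j) ^ s') •
      (if s = 0 ∧ s' = 0 then 0 else ((2 : ℕ).choose s : k) * ((2 : ℕ).choose s' : k) * P (x 2 2) (y s s')) = 0 := by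
    intro t
    have h2 := hP (u t) (x 2 2) (y 0 0)
    rw [hx.top, hy.u] at h2
    simp only [Finset.sum_range_succ, Finset.sum_range_zero, zero_add, map_add, map_smul, smul_eq_mul, Nat.choose] at h2 ⊢
    norm_num at h2 ⊢
    linear_combination h2
  have h2 := poly2 hF hij hi hj (by omega) (by omega) h1 s (by omega) s' (by omega)
  rw [if_neg (by tauto)] at h2
  refine (mul_eq_zero.1 h2).resolve_left (mul_ne_zero ?_ ?_)
  · exact choose_ne' k (by omega : 2 < p) hs
  · exact choose_ne' k (by omega : 2 < p) hs'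

theorem tp_form1 (hF : Fintype.card K = p ^ a) (hp3 : 3 ≤ p) (hij : i ≠ j) (hi : i < a) (hj : j < a)
    (hP : ∀ g x y, P (σ g x) (σ' g y) = P x y) (hx : TP ι p σ i j x) (hy : TP ι p σ' i j y) {s s' : ℕ} (hs : s ≤ 2)
    (hs' : s' ≤ 2) (h : s ≠ 2 ∨ s' ≠ 2) : P (x 0 0) (y s s') = 0 := by
  have h1 := hP w (x 0 0) (y s s')
  rw [hx.w 0 (by norm_num) 0 (by norm_num), hy.w s hs s' hs', map_smul, map_smul, LinearMap.smul_apply,
    tp_form0 hF hp3 hij hi hj hP hx hy (by omega) (by omega) (by omega), smul_zero, smul_zero] at h1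
  exact h1.symm

theorem tp_form2 (hF : Fintype.card K = p ^ a) (hp3 : 3 ≤ p) (hij : i ≠ j) (hi : i < a) (hj : j < a)
    (hP : ∀ g x y, P (σ g x) (σ' g y) = P x y) (hx : TP ι p σ i j x) (hy : TP ι p σ' i j y) :
    P (x 2 2) (y 0 0) = P (x 0 0) (y 2 2) := by
  have h1 := hP w (x 0 0) (y 2 2)
  rw [hx.w 0 (by norm_num) 0 (by norm_num), hy.w 2 le_rfl 2 le_rfl, map_smul, map_smul, LinearMap.smul_apply] at h1
  norm_num at h1
  exact h1

/-- the middle value -/
theorem tp_form11 (hF : Fintype.card K = p ^ a) (hp3 : 3 ≤ p) (hij : i ≠ j) (hi : i < a) (hj : j < a)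
    (hP : ∀ g x y, P (σ g x) (σ' g y) = P x y) (hx : TP ι p σ i j x) (hy : TP ι p σ' i j y) :
    P (x 0 0) (y 2 2) = 4 * P (x 1 1) (y 1 1) := by
  have h4 : (4 : k) ≠ 0 := by
    have := two_ne (k := k) p (by omega)
    rw [show (4 : k) = 2 * 2 by norm_num]
    exact mul_ne_zero this this
  have h1 : ∀ r t : K, P (σ (u r) (x 0 0)) (σ' (u t) (y 0 0)) =
      ((ι t ^ p ^ i - ι r ^ p ^ i) ^ 2 * (ι t ^ p ^ j - ι r ^ p ^ j) ^ 2) * P (x 0 0) (y 2 2) := by
    intro r t
    have h2 := hP (u r) (x 0 0) (σ' (u (t - r)) (y 0 0))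
    rw [← Module.End.mul_apply, ← map_mul, ← u_add, add_sub_cancel] at h2
    rw [h2, hy.u]
    simp only [Finset.sum_range_succ, Finset.sum_range_zero, zero_add, map_add, map_smul, smul_eq_mul]
    have e : ∀ s ≤ 2, ∀ s' ≤ 2, (s ≠ 2 ∨ s' ≠ 2) → P (x 0 0) (y s s') = 0 := fun s hs s' hs' h =>
      tp_form1 hF hp3 hij hi hj hP hx hy hs hs' h
    rw [e 0 (by norm_num) 0 (by norm_num) (by norm_num), e 0 (by norm_num) 1 (by norm_num) (by norm_num),
      e 0 (by norm_num) 2 (by norm_num) (by norm_num), e 1 (by norm_num) 0 (by norm_num) (by norm_num),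
      e 1 (by norm_num) 1 (by norm_num) (by norm_num), e 1 (by norm_num) 2 (by norm_num) (by norm_num),
      e 2 (by norm_num) 0 (by norm_num) (by norm_num), e 2 (by norm_num) 1 (by norm_num) (by norm_num)]
    rw [map_sub, sub_pow_char_pow, sub_pow_char_pow, Nat.choose_self]
    ring
  have h2 : ∀ r : K, 4 * P (σ (u r) (x 0 0)) (y 1 1) - (4 * (ι r ^ p ^ i) * (ι r ^ p ^ j)) * P (x 0 0) (y 2 2) = 0 := by
    intro r
    have h3 := poly2 (ι := ι) hF hij hi hj (N := 3) (M := 3) (by omega) (by omega)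
      (c := fun s s' => ((2 : ℕ).choose s : k) * ((2 : ℕ).choose s' : k) * P (σ (u r) (x 0 0)) (y s s') -
        (((2 : ℕ).choose s : k) * ((2 : ℕ).choose s' : k) * ((-(ι r ^ p ^ i)) ^ (2 - s) * (-(ι r ^ p ^ j)) ^ (2 - s'))) *
          P (x 0 0) (y 2 2)) (fun t => by
        have h4 := h1 r t
        rw [hy.u] at h4
        simp only [Finset.sum_range_succ, Finset.sum_range_zero, zero_add, map_add, map_smul, smul_eq_mul, Nat.choose] at h4 ⊢
        norm_num at h4 ⊢
        linear_combination h4) 1 (by norm_num) 1 (by norm_num)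
    simp only [Nat.choose_one_right] at h3
    norm_num at h3
    linear_combination h3
  have h3 := poly2 (ι := ι) hF hij hi hj (N := 3) (M := 3) (by omega) (by omega)
    (c := fun s s' => 4 * (((2 : ℕ).choose s : k) * ((2 : ℕ).choose s' : k) * P (x s s') (y 1 1)) -
      if s = 1 ∧ s' = 1 then 4 * P (x 0 0) (y 2 2) else 0) (fun r => by
      have h4 := h2 r
      rw [hx.u] at h4
      simp only [Finset.sum_range_succ, Finset.sum_range_zero, zero_add, map_add, map_smul, smul_eq_mul, Nat.choose,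
        LinearMap.add_apply, LinearMap.smul_apply] at h4 ⊢
      norm_num at h4 ⊢
      linear_combination h4) 1 (by norm_num) 1 (by norm_num)
  simp only [Nat.choose_one_right, and_self, if_true] at h3
  have h5 : (4 : k) * (P (x 0 0) (y 2 2) - 4 * P (x 1 1) (y 1 1)) = 0 := by
    push_cast at h3
    linear_combination -h3
  exact sub_eq_zero.1 ((mul_eq_zero.1 h5).resolve_left h4)

end Cfsg.Agent.R2.F4L
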